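import Cfsg.Agent.F42S.Defs
import Cfsg.Agent.Chev.AutThm
import Cfsg.Agent.S1062
import Cfsg.Agent.S2174
import Cfsg.Agent.S2178
import Cfsg.Agent.S2179

/-! Basic facts on the model `F₄(2)`. -/

set_option autoImplicit false

namespace Cfsg.Agent.F42S

open Cfsg Cfsg.Lie Cfsg.Agent.Chev Cfsg.Agent.Comp Subgroup Cfsg.Agent.PLocal.Amb
open Cfsg.Agent.WG (el el_nil el_cons el_append)

attribute [local instance] goodF4

instance finL0 : Finite L0 := inferInstance

theorem tab_sr : ∀ i < 4, ∀ r < 48, sr i r < 48 ∧ sr i (sr i r) = r ∧ lg (sr i r) = lg r ∧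
    sr i (47 - r) = 47 - sr i r ∧ ∀ s < 48, ip (sr i r) (sr i s) = ip r s ∧
      (ad r s < 48 → ad (sr i r) (sr i s) = sr i (ad r s)) ∧
      (ad (sr i r) (sr i s) < 48 ↔ ad r s < 48) := by decide +kernel

theorem tab_gm : ∀ r < 48, gm r < 48 ∧ gm (gm r) = r ∧ lg (gm r) = !lg r ∧
    gm (47 - r) = 47 - gm r ∧ (24 ≤ gm r ↔ 24 ≤ r) ∧ ∀ i < 4, gm (sr i r) = sr (3 - i) (gm r) := by
  decide +kernel

theorem tab_sm : ∀ i < 4, sm i < 48 ∧ gm (sm i) = sm (3 - i) ∧ (lg (sm i) = false ↔ i < 2) := by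
  decide +kernel

set_option synthInstance.maxSize 2000 in
theorem tab_cm : ∀ r < 48, ∀ s < 48, s ≠ 47 - r → ∀ k ∈ cm r s, k < 48 ∧
    (24 ≤ r → 24 ≤ s → r < k ∧ s < k) := by decide +kernel

theorem xx_inv (r : ℕ) : (xx r)⁻¹ = xx r := inv_eq_of_mul_eq_one_right (xx_sq r)

theorem xx_ne {r : ℕ} (hr : r < 48) : xx r ≠ 1 := fun e => by
  have : ∀ r < 48, Q [r] [] = false := by decide +kernel
  exact Q_ne (this r hr) (by simpa using e)

theorem xx_comm {r s : ℕ} (hr : r < 48) (hs : s < 48) (h : s ≠ 47 - r) :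
    xx s * xx r = xx r * xx s * el xx (cm r s) := by
  have t := tab_rel
  simp only [allLT_iff, and'_eq_true, or'_eq_true, Comp.beq_iff, Q_iff] at t
  simpa [mul_assoc] using (((t r hr).2 s hs).resolve_left h).1

theorem el_rev (u : List ℕ) : el xx u.reverse = (el xx u)⁻¹ := by
  induction u with
  | nil => simp
  | cons a u ih => simp [ih, xx_inv]

theorem xC0 (r : ℕ) : xC chevF4 (ZMod 2) r 0 = 1 := by
  by_cases hr : r < chevF4.nroots
  · exact isSt_xC.toIsSt0.x_zero hr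
  · exact xC_of_not_lt hr 0

theorem xC_mem {H : Subgroup L0} {r : ℕ} (h : xx r ∈ H) (t : ZMod 2) : xC chevF4 (ZMod 2) r t ∈ H := by
  rcases zm2 t with rfl | rfl
  · rw [xC0]; exact H.one_mem
  · exact h

theorem TN : rootTableF4.N = 24 := rootTableF4.N_eq

theorem gen {H : Subgroup L0} (h : ∀ r < 48, xx r ∈ H) : H = ⊤ := by
  rw [eq_top_iff, ← Gs_xC]
  exact XS_le.2 fun r hr t => xC_mem (h r hr) t

theorem hom_ext {G : Type*} [Group G] {f g : L0 →* G} (h : ∀ r < 48, f (xx r) = g (xx r)) :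
    f = g := MonoidHom.ext fun a => (gen (H := f.eqLocus g) h).ge (mem_top a)

theorem eq_one_of_comm {a : L0} (h : ∀ r < 48, a * xx r = xx r * a) : a = 1 := by
  have h1 := gen (H := centralizer {a}) fun r hr => mem_centralizer_singleton_iff.2 (h r hr).symm
  have h2 : a ∈ center L0 := mem_center_iff.2 fun g => mem_centralizer_singleton_iff.1 (h1.ge (mem_top g))
  rwa [center_group_eq_bot rootTableF4] at h2

theorem perfect : _root_.commutator L0 = ⊤ := by
  refine (Subgroup.Normal.eq_bot_or_eq_top inferInstance).resolve_left fun h => ?_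
  have h1 := ((commutator_eq_bot_iff_center_eq_top _).1 h).ge (mem_top (xx 25))
  exact Q_ne (u := [24, 25]) (v := [25, 24]) (by decide +kernel)
    (by simpa using mem_center_iff.1 h1 (xx 24))

theorem card_L0 : Nat.card L0 = 2 ^ 24 * 3 ^ 6 * 5 ^ 2 * 7 ^ 2 * 13 * 17 := by
  rw [S1062.result (F := ZMod 2) (q := 2) (ZMod.card 2)]; norm_num

theorem gam_gam (a : L0) : gam (gam a) = a := DFunLike.congr_fun (hom_ext (f := gam.comp gam) (g := MonoidHom.id _) fun r hr => by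
  rw [MonoidHom.comp_apply, gam_xx hr, gam_xx (tab_gm r hr).1, (tab_gm r hr).2.1]; rfl) a

theorem gam_inj : Function.Injective gam := Function.LeftInverse.injective gam_gam

theorem gam_el {u : List ℕ} (h : ∀ a ∈ u, a < 48) : gam (el xx u) = el xx (u.map gm) := by
  induction u with
  | nil => simp
  | cons a u ih => simp [gam_xx (h a (by simp)), ih fun b hb => h b (by simp [hb])]

theorem tab_sym : ∀ π : Fin chevF4.rank → Fin chevF4.rank, Function.Injective π →
    (∀ i j : Fin chevF4.rank, i ≠ j → chevF4.bonds (π i) (π j) = chevF4.bonds i j) → (∀ i, π i = i) ∨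
    ∀ i : Fin chevF4.rank, chevF4.simple i < 48 ∧ chevF4.neg (chevF4.simple i) < 48 ∧
      gm (chevF4.simple i) = chevF4.simple (π i) ∧
      gm (chevF4.neg (chevF4.simple i)) = chevF4.neg (chevF4.simple (π i)) := by decide +kernel

theorem aut (θ : L0 →* L0) (h : Function.Injective θ) :
    (∃ a, ∀ b, θ b = a * b * a⁻¹) ∨ ∃ a, ∀ b, θ b = a * gam b * a⁻¹ := by
  obtain ⟨g, c, π, γ, σ, h1, h2, e⟩ := exists_aut_decomp memF4
    (MulEquiv.ofBijective θ (Finite.injective_iff_bijective.1 h))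
  have e1 : ∀ b, θ b = g * γ b * g⁻¹ := fun b => by
    have := DFunLike.congr_fun e b
    rw [Subsingleton.elim c 1, show σ = 1 from RingEquiv.ext fun t => by
      rcases zm2 t with rfl | rfl <;> simp, map_one, map_one, one_mul, mul_one] at this
    exact this
  have key : ∀ f : L0 →* L0, (∀ i : Fin chevF4.rank, f (xx (chevF4.simple i)) = xx (chevF4.simple (π i)) ∧
      f (xx (chevF4.neg (chevF4.simple i))) = xx (chevF4.neg (chevF4.simple (π i)))) →
      ∀ b, θ b = g * f b * g⁻¹ := fun f hf b => by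
    have : γ.toMonoidHom = f := hom_ext_simple rootTableF4 (fun i t => by
      rcases zm2 t with rfl | rfl
      · rw [xC0, map_one, map_one]
      · exact ((h2 i 1).1.trans (by rw [one_pow]; rfl)).trans (hf i).1.symm) fun i t => by
      rcases zm2 t with rfl | rfl
      · rw [xC0, map_one, map_one]
      · exact ((h2 i 1).2.trans (by rw [one_pow]; rfl)).trans (hf i).2.symm
    rw [e1, ← this]; rfl
  rcases tab_sym π π.injective h1 with k | k
  · exact .inl ⟨g, key (MonoidHom.id _) fun i => by rw [k i]; exact ⟨rfl, rfl⟩⟩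
  · exact .inr ⟨g, key gam fun i => by
      rw [gam_xx (k i).1, gam_xx (k i).2.1, (k i).2.2.1, (k i).2.2.2]; exact ⟨rfl, rfl⟩⟩

theorem nn_conj {i r : ℕ} (hi : i < 4) (hr : r < 48) :
    el xx (nr (sm i)) * xx r * (el xx (nr (sm i)))⁻¹ = xx (sr i r) := by
  have : ∀ i < 4, ∀ r < 48, Q (nr (sm i) ++ [r]) (sr i r :: nr (sm i)) = true := by decide +kernel
  have := Q_eq (this i hi r hr)
  rw [el_append, el_cons, el_nil, mul_one, el_cons] at this
  rw [this, mul_inv_cancel_right]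

theorem sg_nil : sg [] = [] := rfl
theorem sg_cons (i : ℕ) (w : List ℕ) : sg (i :: w) = nr (sm i) ++ sg w := rfl
theorem aw_nil (r : ℕ) : aw [] r = r := rfl
theorem aw_cons (i : ℕ) (w : List ℕ) (r : ℕ) : aw (i :: w) r = sr i (aw w r) := rfl

theorem aw_lt {w : List ℕ} (hw : ∀ i ∈ w, i < 4) {r : ℕ} (hr : r < 48) : aw w r < 48 := by
  induction w with
  | nil => exact hr
  | cons i w ih => exact (tab_sr i (hw i (by simp)) _ (ih fun k hk => hw k (by simp [hk]))).1

theorem sg_conj {w : List ℕ} (hw : ∀ i ∈ w, i < 4) {r : ℕ} (hr : r < 48) :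
    el xx (sg w) * xx r * (el xx (sg w))⁻¹ = xx (aw w r) := by
  induction w with
  | nil => simp [sg_nil, aw_nil]
  | cons i w ih =>
    have h' : ∀ k ∈ w, k < 4 := fun k hk => hw k (by simp [hk])
    rw [sg_cons, aw_cons, el_append, ← nn_conj (hw i (by simp)) (aw_lt h' hr), ← ih h']; group

/-- The dominant pairs of roots. -/
def dom : List (ℕ × ℕ) := [(44, 3), (44, 6), (44, 14), (44, 29), (44, 32), (44, 40), (44, 44), (44, 47),
  (47, 0), (47, 18), (47, 23), (47, 37), (47, 41), (47, 44), (47, 46), (47, 47)]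

theorem tab_dom : ∀ r < 48, ∀ s < 48, (r, s) ∈ dom ∨ ∃ i < 4, 48 * r + s < 48 * sr i r + sr i s := by
  decide +kernel

theorem tab_dom' : ∀ p ∈ dom, ∀ q ∈ dom, lg p.1 = lg q.1 → lg p.2 = lg q.2 → ip p.1 p.2 = ip q.1 q.2 →
    p = q := by decide +kernel

/-- Induction over the `W`-orbits of pairs of roots. -/
theorem ind2 {P : ℕ → ℕ → Prop} (h : ∀ i < 4, ∀ r < 48, ∀ s < 48, P r s → P (sr i r) (sr i s))
    {r s r' s' : ℕ} (hr : r < 48) (hs : s < 48) (hr' : r' < 48) (hs' : s' < 48)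
    (e1 : lg r = lg r') (e2 : lg s = lg s') (e3 : ip r s = ip r' s') (p : P r s) : P r' s' := by
  have up : ∀ n a b, a < 48 → b < 48 → 2400 - (48 * a + b) = n → ∃ d ∈ dom, lg a = lg d.1 ∧
      lg b = lg d.2 ∧ ip a b = ip d.1 d.2 ∧ (P a b ↔ P d.1 d.2) := fun n => by
    induction n using Nat.strong_induction_on with
    | _ n ih =>
      intro a b ha hb e
      rcases tab_dom a ha b hb with k | ⟨i, hi, k⟩
      · exact ⟨_, k, rfl, rfl, rfl, Iff.rfl⟩
      · have ta := tab_sr i hi a ha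
        have tb := tab_sr i hi b hb
        obtain ⟨d, hd, k1, k2, k3, k4⟩ := ih _ (by omega) _ _ ta.1 tb.1 rfl
        refine ⟨d, hd, ta.2.2.1 ▸ k1, tb.2.2.1 ▸ k2, (ta.2.2.2.2 b hb).1 ▸ k3,
          ⟨fun q => k4.1 (h i hi a ha b hb q), fun q => ?_⟩⟩
        have := h i hi _ ta.1 _ tb.1 (k4.2 q)
        rwa [ta.2.1, tb.2.1] at this
  obtain ⟨d, hd, k1, k2, k3, k4⟩ := up _ r s hr hs rfl
  obtain ⟨d', hd', l1, l2, l3, l4⟩ := up _ r' s' hr' hs' rfl
  obtain rfl := tab_dom' d hd d' hd' (by rw [← k1, ← l1, e1]) (by rw [← k2, ← l2, e2])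
    (by rw [← k3, ← l3, e3])
  exact l4.2 (k4.1 p)

/-- Induction over the `W`-orbits of roots. -/
theorem ind1 {P : ℕ → Prop} (h : ∀ i < 4, ∀ r < 48, P r → P (sr i r)) {r s : ℕ} (hr : r < 48)
    (hs : s < 48) (e : lg r = lg s) (p : P r) : P s := by
  have : ∀ r < 48, ∀ s < 48, lg r = lg s → ip r r = ip s s := by decide +kernel
  exact ind2 (P := fun a _ => P a) (fun i hi a ha _ _ => h i hi a ha) hr hr hs hs e e (this r hr s hs e) p

theorem orb2 {r s r' s' : ℕ} (hr : r < 48) (hs : s < 48) (hr' : r' < 48) (hs' : s' < 48)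
    (e1 : lg r = lg r') (e2 : lg s = lg s') (e3 : ip r s = ip r' s') :
    ∃ w : List ℕ, (∀ i ∈ w, i < 4) ∧ aw w r = r' ∧ aw w s = s' := ind2 (P := fun a b => ∃ w : List ℕ, (∀ i ∈ w, i < 4) ∧ aw w r = a ∧ aw w s = b)
    (fun i hi _ _ _ _ ⟨w, h1, h2, h3⟩ => ⟨i :: w, List.forall_mem_cons.2 ⟨hi, h1⟩, by rw [aw_cons, h2],
      by rw [aw_cons, h3]⟩) hr hs hr' hs' e1 e2 e3 ⟨[], by simp, rfl, rfl⟩

theorem xx_mem {l : List ℕ} {r : ℕ} (h : r ∈ l) : xx r ∈ XX l := subset_closure ⟨r, h, rfl⟩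

theorem XX_le {l : List ℕ} {H : Subgroup L0} : XX l ≤ H ↔ ∀ r ∈ l, xx r ∈ H := by
  rw [XX, closure_le]
  exact ⟨fun h r hr => h ⟨r, hr, rfl⟩, by rintro h _ ⟨r, hr, rfl⟩; exact h r hr⟩

theorem el_mem {H : Subgroup L0} {u : List ℕ} (h : ∀ r ∈ u, xx r ∈ H) : el xx u ∈ H := by
  induction u with
  | nil => exact H.one_mem
  | cons a u ih => rw [el_cons]; exact H.mul_mem (h a (by simp)) (ih fun b hb => h b (by simp [hb]))

theorem mem_up {k r : ℕ} : r ∈ up k ↔ k ≤ r ∧ r < 48 := by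
  rw [up, List.mem_range'_1]; omega

theorem xx_mem_UU {k r : ℕ} (h : k ≤ r) : xx r ∈ UU k := by
  by_cases hr : r < 48
  · exact xx_mem (mem_up.2 ⟨h, hr⟩)
  · rw [xx_ge (not_lt.1 hr)]; exact one_mem _

theorem UU_le {k : ℕ} {H : Subgroup L0} : UU k ≤ H ↔ ∀ r, k ≤ r → r < 48 → xx r ∈ H := by
  simp only [UU, XX_le, mem_up, and_imp]

theorem UU_mono {k m : ℕ} (h : k ≤ m) : UU m ≤ UU k := UU_le.2 fun _ hr _ => xx_mem_UU (h.trans hr)

theorem UU_top {k : ℕ} (h : 48 ≤ k) : UU k = ⊥ := eq_bot_iff.2 (UU_le.2 fun r h1 h2 => by omega)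

theorem bw_nil (m : ℕ) : bw [] m = [] := rfl

theorem bw_cons (a : ℕ) (l : List ℕ) (m : ℕ) :
    bw (a :: l) m = if m % 2 = 1 then a :: bw l (m / 2) else bw l (m / 2) := by
  change ite' (Nat.beq (m &&& 1) 1) (a :: bw l (m >>> 1)) (bw l (m >>> 1)) = _
  simp only [ite'_eq, Comp.beq_iff, Nat.and_one_is_mod, Nat.shiftRight_one]

theorem up_cons {k : ℕ} (h : k < 48) : up k = k :: up (k + 1) := by
  rw [up, up, show 48 - k = 48 - (k + 1) + 1 by omega, List.range'_succ]

theorem bw_mem {l : List ℕ} {m r : ℕ} (h : r ∈ bw l m) : r ∈ l := by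
  induction l generalizing m with
  | nil => exact h
  | cons a l ih =>
    rw [bw_cons] at h
    split_ifs at h
    · exact List.mem_cons.2 ((List.mem_cons.1 h).imp_right ih)
    · exact List.mem_cons_of_mem _ (ih h)

theorem xx_conj {r s : ℕ} (hr : r < 48) (hs : s < 48) (h : s ≠ 47 - r) :
    xx r * xx s * xx r = xx s * el xx (cm r s) := by
  rw [mul_assoc, xx_comm hr hs h, ← mul_assoc, ← mul_assoc, xx_sq, one_mul]

theorem norm_of {G : Type*} [Group G] [Finite G] {a : G} {T : Set G}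
    (h : ∀ b ∈ T, a * b * a⁻¹ ∈ closure T) : a ∈ 𝐍[closure T] :=
  mem_normalizer_of_cj_le (map_le_iff_le_comap.2 ((closure_le _).2 h))

theorem XX_norm {l m : List ℕ} (h : ∀ r ∈ l, ∀ s ∈ m, xx r * xx s * xx r ∈ XX m) : XX l ≤ 𝐍[XX m] :=
  XX_le.2 fun r hr => norm_of (by
    rintro _ ⟨s, hs, rfl⟩
    rw [xx_inv]; exact h r hr s hs)

/-- Commutators of generators suffice. -/
theorem comm_mem {G : Type*} [Group G] {A K : Subgroup G} (hA : K ≤ 𝐍[A]) {S T : Set G} (hS : S ⊆ K)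
    (hT : T ⊆ K) (h : ∀ a ∈ S, ∀ b ∈ T, a * b * a⁻¹ * b⁻¹ ∈ A) {a b : G} (ha : a ∈ closure S)
    (hb : b ∈ closure T) : a * b * a⁻¹ * b⁻¹ ∈ A := by
  have key : ∀ {S : Set G}, S ⊆ K → ∀ {b : G}, (∀ a ∈ S, a * b * a⁻¹ * b⁻¹ ∈ A) →
      ∀ a ∈ closure S, a * b * a⁻¹ * b⁻¹ ∈ A := fun {S} hS b h a ha => by
    induction ha using closure_induction with
    | mem a ha => exact h a ha
    | one => simpa using A.one_mem
    | mul a c ha _ h1 h2 =>
      have := A.mul_mem (PLocal.Amb.conj_mem_of_mem_normalizer (hA ((closure_le K).2 hS ha)) h2) h1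
      convert this using 1; group
    | inv a ha h1 =>
      have := inv_conj_mem_of_mem_normalizer (hA ((closure_le K).2 hS ha)) (A.inv_mem h1)
      convert this using 1; group
  have := key hT (b := a) (fun b hb => by
    have := A.inv_mem (key hS (fun a ha => h a ha b hb) a ha)
    convert this using 1; group) b hb
  convert A.inv_mem this using 1; group

theorem UU_norm {k : ℕ} (hk : 24 ≤ k) : UU 24 ≤ 𝐍[UU k] := by
  refine XX_norm fun r hr s hs => ?_
  rw [mem_up] at hr hs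
  rw [xx_conj hr.2 hs.2 (by omega)]
  exact mul_mem (xx_mem_UU hs.1) (el_mem fun a ha => xx_mem_UU
    (hs.1.trans ((tab_cm r hr.2 s hs.2 (by omega) a ha).2 hr.1 (by omega)).2.le))

theorem UU_comm {k : ℕ} (hk : 24 ≤ k) {u g : L0} (hu : u ∈ UU 24) (hg : g ∈ UU k) :
    u * g * u⁻¹ * g⁻¹ ∈ UU (k + 1) := by
  refine comm_mem (UU_norm (k := k + 1) (by omega)) subset_closure
    ((closure_le _).1 (UU_mono hk)) ?_ hu hg
  rintro _ ⟨r, hr, rfl⟩ _ ⟨s, hs, rfl⟩
  rw [mem_up] at hr hs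
  rw [xx_inv, xx_inv, mul_assoc (xx r), mul_assoc (xx r),
    xx_conj hs.2 hr.2 (by omega), ← mul_assoc, xx_sq, one_mul]
  exact el_mem fun a ha => xx_mem_UU
    (lt_of_le_of_lt hs.1 ((tab_cm s hs.2 r hr.2 (by omega) a ha).2 (by omega) hr.1).1)

theorem UU_step {k : ℕ} (hk : 24 ≤ k) {g : L0} (hg : g ∈ UU k) :
    g ∈ UU (k + 1) ∨ xx k * g ∈ UU (k + 1) := by
  have hn := fun a => PLocal.Amb.conj_mem_of_mem_normalizer (x := a)
    (UU_norm (k := k + 1) (by omega) (xx_mem_UU hk))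
  simp only [xx_inv] at hn
  have q : ∀ a, xx k * (xx k * a) = a := fun a => by rw [← mul_assoc, xx_sq, one_mul]
  induction hg using closure_induction with
  | mem g hg =>
    obtain ⟨r, hr, rfl⟩ := hg
    rcases (mem_up.1 hr).1.eq_or_lt with rfl | h
    · exact .inr (by rw [xx_sq]; exact one_mem _)
    · exact .inl (xx_mem_UU h)
  | one => exact .inl (one_mem _)
  | mul a b _ _ h1 h2 =>
    rcases h1 with h1 | h1 <;> rcases h2 with h2 | h2
    · exact .inl (mul_mem h1 h2)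
    · exact .inr (by simpa [mul_assoc, q] using mul_mem (hn _ h1) h2)
    · exact .inr (by simpa [mul_assoc] using mul_mem h1 h2)
    · exact .inl (by simpa [mul_assoc, q] using mul_mem (hn _ h1) h2)
  | inv a _ h =>
    rcases h with h | h
    · exact .inl (inv_mem h)
    · exact .inr (by simpa [mul_assoc, xx_inv, xx_sq] using hn _ (inv_mem h))

theorem UU_nf {k : ℕ} (hk : 24 ≤ k) {g : L0} (hg : g ∈ UU k) :
    ∃ m < 2 ^ (48 - k), g = el xx (bw (up k) m) := by
  induction h : 48 - k generalizing k g with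
  | zero =>
    rw [UU_top (by omega), mem_bot] at hg
    exact ⟨0, by simp, by rw [hg, up, h]; rfl⟩
  | succ n ih =>
    rw [up_cons (by omega)]
    rcases UU_step hk hg with h1 | h1 <;> obtain ⟨m, hm, e⟩ := ih (by omega) h1 (by omega)
    · exact ⟨2 * m, by omega, by rw [bw_cons, if_neg (by omega), e]; congr 2; omega⟩
    · refine ⟨2 * m + 1, by omega, ?_⟩
      rw [bw_cons, if_pos (by omega), el_cons, show (2 * m + 1) / 2 = m by omega, ← e, ← mul_assoc,
        xx_sq, one_mul]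

theorem not_mem_UU {k : ℕ} (hk : 24 ≤ k) (hk' : k < 48) : xx k ∉ UU (k + 1) := fun h => by
  have hN := TN
  refine one_ne_zero ((isND_xC rootTableF4).nd rootTableF4.val k (by omega)
    (rootTableF4.val_pos (by omega) (by omega)) (1 : ZMod 2) (UU_le.2 (fun r h1 h2 => ?_) h))
  exact mem_XS (And.intro (by omega) (rootTableF4.val_lt h1 (by omega))) 1

theorem XX_eq {l : List ℕ} {S : Set ℕ} (h : ∀ r, r ∈ l ↔ r ∈ S) : XX l = XS (xC chevF4 (ZMod 2)) S :=
  le_antisymm (XX_le.2 fun r hr => mem_XS ((h r).1 hr) 1)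
    (XS_le.2 fun r hr t => xC_mem (xx_mem ((h r).2 hr)) t)

theorem UU_eq (k : ℕ) : UU k = XS (xC chevF4 (ZMod 2)) {r | k ≤ r ∧ r < 48} := XX_eq fun _ => mem_up

theorem nil_up {k : ℕ} (hk : 24 ≤ k) : rootTableF4.Nil {r | k ≤ r ∧ r < 48} := by
  have hN := TN
  refine rootTableF4.nil_pos'.mono (fun r hr => ⟨by have := hr.1; omega, by have := hr.2; omega⟩)
    fun r hr s hs m hm i j hi hj e => ⟨?_, by omega⟩
  obtain ⟨⟨h1, h2⟩, h3, h4⟩ := And.intro hr hs
  have a := rootTableF4.val_pos (r := r) (by omega) (by omega)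
  have b := rootTableF4.val_pos (r := s) (by omega) (by omega)
  refine h1.trans ((rootTableF4.val_lt_iff (by omega) hm).1 ?_).le
  rw [e, map_add, map_nsmul, map_nsmul, nsmul_eq_mul, nsmul_eq_mul]
  have : (1 : ℤ) ≤ i := by exact_mod_cast hi
  have : (1 : ℤ) ≤ j := by exact_mod_cast hj
  nlinarith

theorem U_eq : Us chevF4 (xC chevF4 (ZMod 2)) = UU 24 := by rw [rootTableF4.Us_eq, UU_eq, TN]

theorem acts_xx {n : L0} {w : rootTableF4.W} (h : Acts (xC chevF4 (ZMod 2)) rootTableF4 n w) {r : ℕ}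
    (hr : r < 48) : n * xx r * n⁻¹ = xx (rootTableF4.act w r) := by
  obtain ⟨c, hc⟩ := h
  have := hc r (by rw [TN]; exact hr)
  rw [xx, this.2.2, (zm2 (c r)).resolve_left this.1, one_mul]; rfl

theorem H_eq : Hs chevF4 (xC chevF4 (ZMod 2)) = ⊥ := eq_bot_iff.2 fun g hg =>
  eq_one_of_comm fun r hr => by
    rw [← mul_inv_eq_iff_eq_mul, acts_xx (isSt_xC.acts_of_mem_Hs rootTableF4 hg) hr, rootTableF4.act_one]

theorem B_eq : Bs chevF4 (xC chevF4 (ZMod 2)) = UU 24 := by rw [Bs, H_eq, U_eq, sup_bot_eq]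

theorem card_UU {k : ℕ} (hk : 24 ≤ k) : Nat.card (UU k) = 2 ^ (48 - k) := by
  rw [UU_eq, (isND_xC rootTableF4).card_XS isSt_xC.toIsSt0 (nil_up hk), Nat.card_zmod,
    show {r | k ≤ r ∧ r < 48} = (Finset.Ico k 48 : Set ℕ) by ext; simp, Set.ncard_coe_finset,
    Nat.card_Ico]

theorem syl_U : IsSyl 2 (UU 24) ⊤ := by
  have h := card_UU (k := 24) le_rfl
  refine isSyl_of_not_dvd_relIndex (IsPGroup.of_card h) le_top ?_
  have := (UU 24).card_mul_index
  rw [h, card_L0] at this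
  rw [relIndex_top_right]
  omega

theorem norm_U : 𝐍[UU 24] = UU 24 := by
  have := (isND_xC (F := ZMod 2) rootTableF4).normalizer_Us isSt_xC Gs_xC
  rwa [U_eq, B_eq] at this

theorem gam_U {a : L0} (h : a ∈ UU 24) : gam a ∈ UU 24 := UU_le (H := (UU 24).comap gam).2 (fun r h1 h2 => by
  rw [mem_comap, gam_xx h2]; exact xx_mem_UU ((tab_gm r h2).2.2.2.2.1.2 h1)) h

theorem tab_fix : ∀ i : Fin chevF4.rank, ∀ s < 48, (∀ r ∈ up 42,
    chevF4.pairing r s = chevF4.pairing r (chevF4.simple i)) → s = chevF4.simple i := by decide +kernel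

/-- An element centralising `x₄₂, …, x₄₇` lies in `U`. -/
theorem mem_U {g : L0} (h : ∀ r, 42 ≤ r → r < 48 → g * xx r = xx r * g) : g ∈ UU 24 := by
  have hN := TN
  obtain ⟨b, hb, n, hn, c, hc, rfl⟩ := isSt_xC.exists_BNB rootTableF4 (g := g) (by rw [Gs_xC]; trivial)
  obtain ⟨w, hw⟩ := isSt_xC.exists_acts rootTableF4 hn
  rw [B_eq] at hb hc
  have key : ∀ r, 42 ≤ r → r < 48 → r ≤ rootTableF4.act w r ∧ rootTableF4.act w r < 48 := fun r h1 h2 => by
    have m1 := PLocal.Amb.conj_mem_of_mem_normalizer (UU_norm (k := r) (by omega) hc) (xx_mem_UU le_rfl)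
    have m2 := inv_conj_mem_of_mem_normalizer (UU_norm (k := r) (by omega) hb) (xx_mem_UU le_rfl)
    rw [UU_eq] at m1 m2
    obtain ⟨t, ht⟩ := isSt_xC.toIsSt0.exists_oprod (nil_up (by omega)) (l := up r)
      (List.nodup_range' ..) (fun _ => mem_up) m1
    refine (isND_xC rootTableF4).act_mem_of_conj_mem isSt_xC hw (L := up r) (List.nodup_range' ..)
      (fun s hs => by rw [mem_up] at hs; omega) (by simpa only [mem_up] using (nil_up (by omega)).closed)
      (S := {s | r ≤ s ∧ s < 48}) (fun s hs => by obtain ⟨_, _⟩ := hs; omega) (nil_up (by omega)).closed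
      (t := t) ?_ (mem_up.2 ⟨le_rfl, h2⟩) fun t0 => not_mem_UU (k := r) (by omega) h2 ?_
    · rw [← ht]
      convert m2 using 1
      have := h r h1 h2
      calc _ = b⁻¹ * (b * n * c * xx r) * (b * n * c)⁻¹ * b := by group
        _ = _ := by rw [this]; group
    · have m3 := UU_comm (k := r) (by omega) hc (xx_mem_UU le_rfl)
      rw [ht, up_cons h2, oprod_cons, t0, xC0, one_mul, xx_inv] at m3
      exact (mul_mem_cancel_left (oprod_mem fun s hs => xC_mem (xx_mem hs) _)).1 m3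
  have inj := fun r s => (rootTableF4.act w).injective.ne_iff (x := r) (y := s)
  have fix : ∀ r, 42 ≤ r → r < 48 → rootTableF4.act w r = r := by
    have a := key 42 (by omega) (by omega)
    have := And.intro (key 43 (by omega) (by omega)) (key 44 (by omega) (by omega))
    have := And.intro (key 45 (by omega) (by omega)) (key 46 (by omega) (by omega))
    have := key 47 (by omega) (by omega)
    have : ∀ r ∈ [42, 43, 44, 45, 46, 47], ∀ s ∈ [42, 43, 44, 45, 46, 47], r ≠ s →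
      rootTableF4.act w r ≠ rootTableF4.act w s := fun r _ s _ e => (inj r s).2 e
    simp only [List.forall_mem_cons] at this
    intro r h1 h2
    interval_cases r <;> omega
  have w1 : w = 1 := rootTableF4.eq_of_act_eq fun i => by
    rw [rootTableF4.act_one]
    have l := rootTableF4.simple_lt i
    refine tab_fix i _ (by have := rootTableF4.act_lt w l; omega) fun r hr => ?_
    rw [mem_up] at hr
    rw [← rootTableF4.pairing_act w (r := r) (by omega) l, fix r hr.1 hr.2]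
  have := (isND_xC rootTableF4).mem_Hs_of_acts_one isSt_xC hn (w1 ▸ hw)
  rw [H_eq, mem_bot] at this
  rw [this, mul_one]
  exact mul_mem hb hc

theorem conj_sub {G : Type*} [Group G] {H : Subgroup G} {a b : H} :
    IsConj a b ↔ ∃ g ∈ H, g * a * g⁻¹ = b :=
  isConj_iff.trans ⟨fun ⟨g, e⟩ => ⟨g, g.2, congrArg Subtype.val e⟩,
    fun ⟨g, hg, e⟩ => ⟨⟨g, hg⟩, Subtype.ext e⟩⟩

theorem cls {a : L0} (h2 : a * a = 1) (h1 : a ≠ 1) : IsConj (xx 47) a ∨ IsConj (xx 44) a ∨
    IsConj (xx 47 * xx 44) a ∨ IsConj (xx 39 * xx 45) a := by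
  obtain ⟨y, hy, h3, g, hg, e⟩ := (S2174.result (F := ZMod 2)).2.1 a a.2 (by
    rw [Subgroup.orderOf_coe]; exact orderOf_eq_prime (by rw [pow_two, h2]) h1)
  have k : ∀ b : L0, y.1 = b.1.1 → IsConj b a :=
    fun b hb => (conj_sub.2 ⟨g, hg, e.trans (Units.ext hb)⟩).symm
  simp only [List.mem_cons, List.not_mem_nil, or_false] at h3
  exact h3.imp (k _) (Or.imp (k _) (Or.imp (fun h => k _ (by simpa [xx] using h))
    fun h => k _ (by simpa [xx] using h)))

theorem ncls : ¬ IsConj (xx 47) (xx 44) ∧ ¬ IsConj (xx 47) (xx 47 * xx 44) ∧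
    ¬ IsConj (xx 47) (xx 39 * xx 45) ∧ ¬ IsConj (xx 44) (xx 47 * xx 44) ∧
    ¬ IsConj (xx 44) (xx 39 * xx 45) ∧ ¬ IsConj (xx 47 * xx 44) (xx 39 * xx 45) := by
  have k : ∀ u ∈ [[47], [44], [47, 44], [39, 45]], ∀ v ∈ [[47], [44], [47, 44], [39, 45]],
      Q u v = false → ¬ IsConj (el xx u) (el xx v) := fun u hu v hv hq hc => by
    have m : ∀ u ∈ [[47], [44], [47, 44], [39, 45]], (el xx u).1.1 ∈
        [chevF4.x (ZMod 2) 47 1, chevF4.x (ZMod 2) 44 1, chevF4.x (ZMod 2) 47 1 * chevF4.x (ZMod 2) 44 1,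
          chevF4.x (ZMod 2) 39 1 * chevF4.x (ZMod 2) 45 1] := by simp [xx]
    exact Q_ne hq (Subtype.ext (Units.ext ((S2174.result (F := ZMod 2)).2.2 _ (el xx u).2 _ (el xx v).2
      (m u hu) (m v hv) (conj_sub.1 hc))))
  refine ⟨?_, ?_, ?_, ?_, ?_, ?_⟩
  · simpa using k [47] (by simp) [44] (by simp) (by decide +kernel)
  · simpa using k [47] (by simp) [47, 44] (by simp) (by decide +kernel)
  · simpa using k [47] (by simp) [39, 45] (by simp) (by decide +kernel)
  · simpa using k [44] (by simp) [47, 44] (by simp) (by decide +kernel)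
  · simpa using k [44] (by simp) [39, 45] (by simp) (by decide +kernel)
  · simpa using k [47, 44] (by simp) [39, 45] (by simp) (by decide +kernel)

theorem conj_long {r : ℕ} (hr : r < 48) (h : lg r = true) : IsConj (xx 47) (xx r) := ind1 (P := fun r => IsConj (xx 47) (xx r))
  (fun _ hi _ ha p => p.trans (isConj_iff.2 ⟨_, nn_conj hi ha⟩)) (by omega) hr (h ▸ by decide) (IsConj.refl _)

theorem conj_short {r : ℕ} (hr : r < 48) (h : lg r = false) : IsConj (xx 44) (xx r) := ind1 (P := fun r => IsConj (xx 44) (xx r))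
  (fun _ hi _ ha p => p.trans (isConj_iff.2 ⟨_, nn_conj hi ha⟩)) (by omega) hr (h ▸ by decide) (IsConj.refl _)

theorem closure_comm {G : Type*} [Group G] {S : Set G} {a g : G} (h : ∀ s ∈ S, s * a = a * s)
    (hg : g ∈ closure S) : g * a = a * g :=
  mem_centralizer_singleton_iff.1 ((closure_le (centralizer {a})).2
    (fun r hr => mem_centralizer_singleton_iff.2 (h r hr)) hg)

theorem XX_comm {l : List ℕ} {a g : L0} (h : ∀ r ∈ l, xx r * a = a * xx r) (hg : g ∈ XX l) :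
    g * a = a * g := by
  refine closure_comm (S := {g | ∃ r ∈ l, g = xx r}) ?_ hg
  rintro _ ⟨r, hr, rfl⟩; exact h r hr

theorem cen_iff {g : L0} {u l m : List ℕ} (h1 : ∀ r ∈ l, Q (r :: u) (u ++ [r]) = true)
    (h2 : ∀ r ∈ m, xx r ∈ XX l)
    (h3 : ∀ K : Subgroup (GL chevF4.Idx (ZMod 2)), ((up 24 ⊆ m → chevF4.posUnipotent (ZMod 2) ≤ K) ∧
      ∀ r ∈ m, chevF4.rootSubgroup (ZMod 2) r ≤ K) →
      chevF4.group (ZMod 2) ⊓ centralizer {(el xx u).1} ≤ K) :
    g * el xx u = el xx u * g ↔ g ∈ XX l := by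
  refine ⟨fun h => ?_, XX_comm fun r hr => by simpa using Q_eq (h1 r hr)⟩
  have k : ∀ r ∈ m, ∀ t, xG chevF4 (ZMod 2) r t ∈ (XX l).map (chevF4.group (ZMod 2)).subtype :=
    fun r hr t => mem_map_of_mem (chevF4.group (ZMod 2)).subtype (xC_mem (h2 r hr) t)
  obtain ⟨a, ha, e⟩ := h3 ((XX l).map (chevF4.group (ZMod 2)).subtype) ⟨fun hm => by
      rw [posUnipotent_eq, rootTableF4.Us_eq, TN]
      exact XS_le.2 fun r hr => k r (hm (mem_up.2 hr)),
    fun r hr => by rw [rootSubgroup_eq]; exact XS_le.2 fun s hs => hs ▸ k r hr⟩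
    (x := g) (mem_inf.2 ⟨g.2, mem_centralizer_singleton_iff.2 (by rw [← coe_mul, ← coe_mul, h])⟩)
  exact Subtype.ext e ▸ ha

theorem c47 {g : L0} : g * xx 47 = xx 47 * g ↔ g ∈ XX (14 :: 20 :: 22 :: up 24) := by
  have := cen_iff (g := g) (u := [47]) (l := 14 :: 20 :: 22 :: up 24) (m := 14 :: 20 :: 22 :: up 24)
    (by decide +kernel) (fun _ h => xx_mem h) fun K hK => by
      rw [(S2178.result (F := ZMod 2) _ (xG _ _ 44 1) (by simp [xx]) rfl).1]
      exact sup_le (sup_le (sup_le (hK.1 (by decide)) (hK.2 _ (by decide))) (hK.2 _ (by decide)))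
        (hK.2 _ (by decide))
  simpa using this

theorem c44 {g : L0} : g * xx 44 = xx 44 * g ↔ g ∈ UU 15 := by
  have := cen_iff (g := g) (u := [44]) (l := up 15) (m := up 15)
    (by decide +kernel) (fun _ h => xx_mem h) fun K hK => by
      rw [(S2178.result (F := ZMod 2) (xG _ _ 47 1) _ rfl (by simp [xx])).2]
      exact sup_le (sup_le (sup_le (hK.1 (by decide)) (hK.2 _ (by decide))) (hK.2 _ (by decide)))
        (hK.2 _ (by decide))
  simpa [UU] using this

theorem cz {g : L0} : g * (xx 47 * xx 44) = xx 47 * xx 44 * g ↔ g ∈ P14 := by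
  have := cen_iff (g := g) (u := [47, 44]) (l := 17 :: 19 :: 20 :: 22 :: up 24)
    (m := 20 :: 22 :: up 24) (by decide +kernel) (fun _ h => xx_mem (by simp [h])) fun K hK => by
      rw [(S2179.result (F := ZMod 2) _ (xG _ _ 39 1 * xG _ _ 45 1) (by simp [xx]) (by simp)).1]
      exact sup_le (sup_le (hK.1 (by decide)) (hK.2 _ (by decide))) (hK.2 _ (by decide))
  simpa [P14] using this

theorem ca4 {g : L0} : g * (xx 39 * xx 45) = xx 39 * xx 45 * g ↔
    g ∈ XX [14, 23, 24, 28, 29, 30, 31, 32, 33, 35, 36, 37, 38, 39, 40, 41, 42, 43, 44, 45, 46, 47] := by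
  have := cen_iff (g := g) (u := [39, 45]) (l := [14, 23, 24, 28, 29, 30, 31, 32, 33, 35, 36, 37, 38,
    39, 40, 41, 42, 43, 44, 45, 46, 47]) (by decide +kernel) (fun _ h => xx_mem h) fun K hK => by
      rw [(S2179.result (F := ZMod 2) (xG _ _ 47 1 * xG _ _ 44 1) _ (by simp) (by simp [xx])).2]
      refine sup_le (sup_le (sup_le (sup_le (hK.2 _ (by decide)) (hK.2 _ (by decide)))
        (hK.2 _ (by decide))) (hK.2 _ (by decide))) ((closure_le _).2 ?_)
      rintro a ⟨r, c, h1, h2, e⟩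
      rw [rootTableF4.pos_iff, TN] at h1
      refine hK.2 r ?_ (subset_closure ⟨c, e⟩)
      obtain ⟨h1, h3⟩ := h1
      revert h2
      interval_cases r <;> decide
  simpa using this

end Cfsg.Agent.F42S
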