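import Cfsg.Agent.F42S.Srch

/-! Centralisers and upper central terms in `F₄(2)` (all by the search of `F42S/Srch`). -/

set_option autoImplicit false

namespace Cfsg.Agent.F42S

open Cfsg Cfsg.Agent.Comp Subgroup Cfsg.Agent.PLocal.Amb
open Cfsg.Agent.WG (el el_nil el_cons el_append)
open scoped commutatorElement

instance instDecPos (l : List ℕ) : Decidable (Pos l) := inferInstanceAs (Decidable (∀ a ∈ l, _))

theorem pos_up {k : ℕ} (h : 24 ≤ k) : Pos (up k) := fun a ha => by rw [mem_up] at ha; omega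

theorem srch_0 {k n : ℕ} {T : List Tst} (h : srch (fun q => Q q []) k n T = true) (hk : 24 ≤ k)
    (hn : k + n ≤ 48) {w : L0} (hw : w ∈ UU k)
    (hT : ∀ e ∈ T, ∃ τ ∈ e.2.2, (el xx τ)⁻¹ * (w * xx e.1 * w⁻¹) ∈ UU e.2.1) : w ∈ UU (k + n) := by
  obtain ⟨q, h1, v, hv, e⟩ := srch_ok h hk hn hw hT
  rwa [e, Q_eq h1, el_nil, mul_one]

theorem mem_U' {g : L0} {l : List ℕ} (h : ∀ r ∈ l, g * xx r = xx r * g) (hl : up 42 ⊆ l) : g ∈ UU 24 :=
  mem_U fun r h1 h2 => h r (hl (mem_up.2 ⟨h1, h2⟩))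

theorem cV0 {g : L0} (h : ∀ r, 42 ≤ r → r < 48 → g * xx r = xx r * g) :
    g ∈ UU 33 ∨ xx 29 * g ∈ UU 33 := by
  obtain ⟨q, h1, v, hv, e⟩ := srch_ok (lf := fun q => or' (Q q []) (Q q [29])) (k := 24) (n := 9)
    (T := tC 48 (up 42)) (by decide +kernel) le_rfl (by omega) (mem_U h)
    (tC_ok' (pos_up (by omega)) fun s hs => h s (mem_up.1 hs).1 (mem_up.1 hs).2)
  simp only [or'_eq_true, Q_iff, el_nil, el_cons, mul_one] at h1
  rcases h1 with k | k <;> rw [e, k]
  · exact .inl (by simpa using hv)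
  · have := PLocal.Amb.conj_mem_of_mem_normalizer (UU_norm (by omega) (xx_mem_UU (r := 29) (by omega))) hv
    exact .inr (by rwa [xx_inv, mul_assoc] at this)

theorem cV {g : L0} (h : ∀ r, 41 ≤ r → r < 48 → g * xx r = xx r * g) : g ∈ UU 33 := srch_0 (k := 24) (n := 9) (T := tC 48 (up 41)) (by decide +kernel) le_rfl (by omega)
  (mem_U fun r h1 => h r (by omega))
  (tC_ok' (pos_up (by omega)) fun s hs => h s (mem_up.1 hs).1 (mem_up.1 hs).2)

theorem cQ {g : L0} (h : ∀ r, 33 ≤ r → r < 48 → g * xx r = xx r * g) : g ∈ UU 41 := srch_0 (k := 24) (n := 17) (T := tC 48 (up 33)) (by decide +kernel) le_rfl (by omega)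
  (mem_U fun r h1 => h r (by omega))
  (tC_ok' (pos_up (by omega)) fun s hs => h s (mem_up.1 hs).1 (mem_up.1 hs).2)

theorem c45 {g : L0} (h : ∀ r ∈ [24, 26, 31, 32, 33, 34, 35, 36, 37, 38, 39, 40, 42, 43, 44, 45, 46, 47],
    g * xx r = xx r * g) : ∃ m < 4, g = el xx (bw [44, 47] m) := srch_M (N := []) (by decide +kernel) (mem_U' h (by decide)) (tC_ok' (by decide) h) (by simp)

theorem cA {g : L0} (h : ∀ r ∈ [21, 22, 23, 24, 25, 26, 41, 42, 43, 44, 45, 46, 47],
    g * xx r = xx r * g) : ∃ m < 8, g = el xx (bw [33, 40, 44] m) := srch_M (N := [21, 22, 23]) (T := tC 48 (24 :: 25 :: 26 :: up 41)) (by decide +kernel)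
    (mem_U' h (by decide)) (tC_ok' (by decide) fun s hs => h s (by revert s; decide))
    fun s hs => h s (by revert s; decide)

theorem cU {g : L0} (h : ∀ r ∈ [17, 22, 25, 30, 42, 43, 44, 45, 46, 47],
    g * xx r = xx r * g) : ∃ m < 16, g = el xx (bw [29, 41, 44, 47] m) := srch_M (N := [17, 22]) (T := tC 48 (25 :: 30 :: up 42)) (by decide +kernel)
    (mem_U' h (by decide)) (tC_ok' (by decide) fun s hs => h s (by revert s; decide))
    fun s hs => h s (by revert s; decide)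

theorem conj_comm {G : Type*} [Group G] {g n a : G} (h : g * (n * a * n⁻¹) = n * a * n⁻¹ * g) :
    n⁻¹ * g * n * a = a * (n⁻¹ * g * n) := by
  calc _ = n⁻¹ * (g * (n * a * n⁻¹)) * n := by group
    _ = _ := by rw [h]; group

theorem cenP {r : ℕ} (hr : r < 48) {g : L0} (h : ∀ s < 48, Mo r s → g * xx s = xx s * g) :
    g = 1 ∨ g = xx r := by
  have key : ∀ r ∈ [44, 47], ∀ g : L0, (∀ s < 48, Mo r s → g * xx s = xx s * g) → g = 1 ∨ g = xx r := by
    intro r hr g h
    have t : ∀ r ∈ [44, 47], srch (lfM ((List.range 24).filter (Mo r ·)) [r] 2) 24 24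
      (tC 48 ((up 24).filter (Mo r ·))) = true ∧ ∀ s ∈ up 42, Mo r s := by decide +kernel
    obtain ⟨m, hm, e⟩ := srch_M (t r hr).1
      (mem_U fun s h1 h2 => h s h2 ((t r hr).2 s (mem_up.2 ⟨h1, h2⟩)))
      (tC_ok' (fun a ha => mem_up.1 (List.mem_filter.1 ha).1) fun s hs => by
        rw [List.mem_filter, mem_up] at hs; exact h s hs.1.2 (by simpa using hs.2))
      fun s hs => by
        rw [List.mem_filter, List.mem_range] at hs; exact h s (by omega) (by simpa using hs.2)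
    interval_cases m
    · exact .inl e
    · exact .inr (e.trans (mul_one _))
  have step : ∀ i < 4, ∀ r < 48, (∀ g : L0, (∀ s < 48, Mo r s → g * xx s = xx s * g) → g = 1 ∨ g = xx r) →
      ∀ g : L0, (∀ s < 48, Mo (sr i r) s → g * xx s = xx s * g) → g = 1 ∨ g = xx (sr i r) := by
    intro i hi r hr ih g h
    have := ih ((el xx (nr (sm i)))⁻¹ * g * el xx (nr (sm i))) fun s hs hm => by
      have t := tab_sr i hi
      have := h _ (t s hs).1 (by rwa [Mo, ((t r hr).2.2.2.2 s hs).1, (t s hs).2.2.1, (t r hr).2.2.1])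
      rw [← nn_conj hi hs] at this
      exact conj_comm this
    rw [← nn_conj hi hr]
    exact this.imp (fun e => by simpa [mul_assoc] using congrArg (MulAut.conj (el xx (nr (sm i)))) e)
      fun e => by rw [← e]; group
  cases e : lg r
  · exact ind1 step (by omega) hr (e ▸ by decide) (key 44 (by simp)) g h
  · exact ind1 step (by omega) hr (e ▸ by decide) (key 47 (by simp)) g h

theorem comm_of_z {G : Type*} [Group G] {w a b z : G} (z2 : z * z = 1) (ha : a * z = z * a)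
    (hb : b * z = z * b) (h1 : w * a * w⁻¹ = a ∨ w * a * w⁻¹ = z * a)
    (h2 : w * b * w⁻¹ = b ∨ w * b * w⁻¹ = z * b) : w * (a * b * a * b) = a * b * a * b * w := by
  have e : w * (a * b * a * b) * w⁻¹ = w * a * w⁻¹ * (w * b * w⁻¹) * (w * a * w⁻¹) * (w * b * w⁻¹) := by
    group
  have ha' : ∀ c, a * (z * c) = z * (a * c) := fun c => by rw [← mul_assoc, ha, mul_assoc]
  have hb' : ∀ c, b * (z * c) = z * (b * c) := fun c => by rw [← mul_assoc, hb, mul_assoc]
  have z' : ∀ c, z * (z * c) = c := fun c => by rw [← mul_assoc, z2, one_mul]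
  rw [← mul_inv_eq_iff_eq_mul, e]
  rcases h1 with h1 | h1 <;> rcases h2 with h2 | h2 <;> simp only [h1, h2, mul_assoc, ha', hb', z']

/-- The word of a product of commutators. -/
def cmw (l : List (ℕ × ℕ)) : List ℕ := l.flatMap fun p => [p.1, p.2, p.1, p.2]

theorem mem_of_cmw {H : Subgroup L0} {r : ℕ} {l : List (ℕ × ℕ)} (h : Q [r] (cmw l) = true)
    (h' : ∀ p ∈ l, xx p.1 * xx p.2 * xx p.1 * xx p.2 ∈ H) : xx r ∈ H := by
  have : el xx (cmw l) ∈ H := by
    clear h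
    induction l with
    | nil => exact one_mem _
    | cons p l ih =>
      have := mul_mem (h' p (by simp)) (ih fun q hq => h' q (by simp [hq]))
      simpa [cmw, mul_assoc] using this
  rw [← Q_eq h] at this
  simpa using this

theorem mem_U_z {z l : List ℕ} (h1 : Q (z ++ z) [] = true ∧ ∀ s ∈ l, Q (s :: z) (z ++ [s]) = true)
    (h2 : [24, 29, 30, 33, 35, 40, 41, 42, 43, 46] ⊆ l) {w : L0}
    (h : ∀ s ∈ l, w * xx s * w⁻¹ * xx s = 1 ∨ w * xx s * w⁻¹ * xx s = el xx z) : w ∈ UU 24 := by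
  have t : ∀ r ∈ up 42, ∃ e ∈ [(42, [(24, 41)]), (43, [(24, 35), (29, 33)]), (44, [(33, 40)]),
      (45, [(30, 42)]), (46, [(30, 43)]), (47, [(24, 46)])], Q [r] (cmw e.2) = true ∧ ∀ p ∈ e.2,
      p.1 ∈ [24, 29, 30, 33, 35, 40, 41, 42, 43, 46] ∧ p.2 ∈ [24, 29, 30, 33, 35, 40, 41, 42, 43, 46] := by
    decide +kernel
  have k : ∀ s ∈ l, xx s * el xx z = el xx z * xx s ∧
      (w * xx s * w⁻¹ = xx s ∨ w * xx s * w⁻¹ = el xx z * xx s) := fun s hs =>
    ⟨by simpa using Q_eq (h1.2 s hs), by simpa only [← eq_mul_inv_iff_mul_eq, xx_inv, one_mul] using h s hs⟩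
  refine mem_U fun r a b => ?_
  obtain ⟨e, -, q, hq⟩ := t r (mem_up.2 ⟨a, b⟩)
  have := mem_of_cmw (H := centralizer ({w} : Set L0)) q fun p hp => by
    have a := k _ (h2 (hq p hp).1)
    have b := k _ (h2 (hq p hp).2)
    rw [mem_centralizer_singleton_iff]
    have z2 := Q_eq h1.1
    rw [el_append, el_nil] at z2
    have := comm_of_z z2 a.1 b.1 a.2 b.2
    exact this.symm
  rw [mem_centralizer_singleton_iff] at this
  exact this.symm

theorem z2 {w : L0} (h : ∀ s, 24 ≤ s → s < 48 →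
    w * xx s * w⁻¹ * xx s = 1 ∨ w * xx s * w⁻¹ * xx s = xx 47 * xx 44) :
    ∃ m < 4, w = el xx (bw [44, 47] m) := srch_M (N := []) (T := tZ [47, 44] (up 24)) (by decide +kernel)
    (mem_U_z (z := [47, 44]) (l := up 24) (by decide +kernel) (by decide +kernel) fun s hs => by
      simpa using h s (mem_up.1 hs).1 (mem_up.1 hs).2)
    (tZ_ok (by decide) (by decide) fun s hs => by simpa using h s (mem_up.1 hs).1 (mem_up.1 hs).2) (by simp)

theorem z2l {w : L0} (h : ∀ s, 24 ≤ s → s < 48 →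
    w * xx s * w⁻¹ * xx s = 1 ∨ w * xx s * w⁻¹ * xx s = xx 47) :
    ∃ m < 8, w = el xx (bw [44, 46, 47] m) := srch_M (N := []) (T := tZ [47] (up 24)) (by decide +kernel)
    (mem_U_z (z := [47]) (l := up 24) (by decide +kernel) (by decide +kernel) fun s hs => by
      simpa using h s (mem_up.1 hs).1 (mem_up.1 hs).2)
    (tZ_ok (by decide) (by decide) fun s hs => by simpa using h s (mem_up.1 hs).1 (mem_up.1 hs).2) (by simp)

theorem z2s {w : L0} (h : ∀ s, 24 ≤ s → s < 48 →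
    w * xx s * w⁻¹ * xx s = 1 ∨ w * xx s * w⁻¹ * xx s = xx 44) :
    ∃ m < 8, w = el xx (bw [40, 44, 47] m) := srch_M (N := []) (T := tZ [44] (up 24)) (by decide +kernel)
    (mem_U_z (z := [44]) (l := up 24) (by decide +kernel) (by decide +kernel) fun s hs => by
      simpa using h s (mem_up.1 hs).1 (mem_up.1 hs).2)
    (tZ_ok (by decide) (by decide) fun s hs => by simpa using h s (mem_up.1 hs).1 (mem_up.1 hs).2) (by simp)

theorem z2a {w : L0} (h : ∀ s ∈ [24, 28, 29, 30, 31, 32, 33, 35, 36, 37, 38, 39, 40, 41, 42, 43, 44, 45,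
    46, 47], w * xx s * w⁻¹ * xx s = 1 ∨ w * xx s * w⁻¹ * xx s = xx 39 * xx 45) :
    ∃ m < 16, w = el xx (bw [39, 44, 45, 47] m) := by
  rw [show xx 39 * xx 45 = el xx [39, 45] by simp] at h
  exact srch_M (N := []) (by decide +kernel) (mem_U_z (by decide +kernel) (by decide +kernel) h)
    (tZ_ok (by decide) (by decide) h) (by simp)

theorem V_comm {u v : L0} (hu : u ∈ UU 33) (hv : v ∈ UU 41) : u * v = v * u := by
  have t : ∀ r ∈ up 33, ∀ s ∈ up 41, Q [r, s] [s, r] = true := by decide +kernel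
  exact XX_comm (fun r hr => (XX_comm (fun s hs => by simpa using (Q_eq (t r hr s hs)).symm) hv).symm) hu

theorem V_sq {v : L0} (hv : v ∈ UU 41) : v * v = 1 := by
  induction hv using closure_induction with
  | mem g hg => obtain ⟨r, -, rfl⟩ := hg; exact xx_sq r
  | one => exact mul_one _
  | mul a b ha hb h1 h2 =>
    rw [mul_assoc, ← mul_assoc b, V_comm (UU_mono (by omega) hb) ha, mul_assoc, h2, mul_one, h1]
  | inv a _ h => rw [← mul_inv_rev, h, inv_one]

theorem mem_XX1 {r : ℕ} {g : L0} (h : g ∈ XX [r]) : g = 1 ∨ g = xx r := by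
  induction h using closure_induction with
  | mem g hg => obtain ⟨s, hs, rfl⟩ := hg; exact .inr (by rw [List.mem_singleton.1 hs])
  | one => exact .inl rfl
  | mul a b _ _ h1 h2 => rcases h1 with rfl | rfl <;> rcases h2 with rfl | rfl <;> simp [xx_sq]
  | inv a _ h => rcases h with rfl | rfl <;> simp [xx_inv]

theorem Q_comm {u v : L0} (hu : u ∈ UU 33) (hv : v ∈ UU 33) :
    u * v = v * u ∨ u * v = v * u * xx 44 := by
  have t : ∀ r ∈ up 33, ∀ s ∈ up 33, Q [r, s, r, s] [] = true ∨ Q [r, s, r, s] [44] = true := by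
    decide +kernel
  have c : ∀ g ∈ UU 33, g * xx 44 = xx 44 * g := fun g hg => V_comm hg (xx_mem_UU (by omega))
  have := comm_mem (A := XX [44]) (K := UU 33) (XX_norm fun r hr s hs => by
      rw [List.mem_singleton.1 hs, c _ (xx_mem hr), mul_assoc, xx_sq, mul_one]; exact xx_mem (by simp))
    subset_closure subset_closure (by
      rintro _ ⟨r, hr, rfl⟩ _ ⟨s, hs, rfl⟩
      have e : xx r * xx s * (xx r)⁻¹ * (xx s)⁻¹ = el xx [r, s, r, s] := by simp [xx_inv, mul_assoc]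
      rw [e]
      rcases t r hr s hs with k | k <;> rw [Q_eq k] <;> exact el_mem fun a ha => xx_mem (by simpa using ha))
    hu hv
  have e : u * v = u * v * u⁻¹ * v⁻¹ * (v * u) := by group
  rcases mem_XX1 this with k | k <;> rw [k] at e
  · exact .inl (by rw [e, one_mul])
  · exact .inr (by rw [e, c _ (mul_mem hv hu)])

theorem XX_norm' {l m : List ℕ}
    (h : ∀ r ∈ l, ∀ s ∈ m, r < 48 ∧ s < 48 ∧ s ≠ 47 - r ∧ ∀ k ∈ cm r s, k ∈ m) : XX l ≤ 𝐍[XX m] :=
  XX_norm fun r hr s hs => by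
    obtain ⟨h1, h2, h3, h4⟩ := h r hr s hs
    rw [xx_conj h1 h2 h3]
    exact mul_mem (xx_mem hs) (el_mem fun k hk => xx_mem (h4 k hk))

theorem norm_Q : UU 15 ≤ 𝐍[UU 33] := XX_norm' (by decide +kernel)

theorem norm_V : UU 15 ≤ 𝐍[UU 41] := XX_norm' (by decide +kernel)

theorem norm_V0 : P14 ≤ 𝐍[UU 42] := XX_norm' (by decide +kernel)

theorem cmt_mem {H K : Subgroup L0} {r s : ℕ} (h1 : xx r ∈ H) (h2 : xx s ∈ K) :
    xx r * xx s * xx r * xx s ∈ ⁅H, K⁆ := by
  have := commutator_mem_commutator h1 h2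
  rwa [commutatorElement_def, xx_inv, xx_inv] at this

theorem com_U {r : ℕ} (h : 24 ≤ r) (h' : r ∉ [24, 25, 27, 28, 30, 33]) : xx r ∈ ⁅UU 24, UU 24⁆ := by
  by_cases hr : r < 48
  · have t : ∀ r ∈ up 24, r ∉ [24, 25, 27, 28, 30, 33] → ∃ l ∈ [[(24, 25)], [(24, 28), (25, 31)], [(24, 30)],
        [(25, 31)], [(27, 33)], [(28, 33)], [(29, 33)], [(27, 35)], [(27, 36)], [(28, 36)], [(27, 39)],
        [(25, 34), (28, 33)], [(24, 41)], [(25, 42)], [(33, 40)], [(30, 42)], [(25, 45)], [(24, 46)]],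
        Q [r] (cmw l) = true ∧ ∀ p ∈ l, 24 ≤ p.1 ∧ 24 ≤ p.2 := by decide +kernel
    obtain ⟨l, -, q, hq⟩ := t r (mem_up.2 ⟨h, hr⟩) h'
    exact mem_of_cmw q fun p hp => cmt_mem (xx_mem_UU (hq p hp).1) (xx_mem_UU (hq p hp).2)
  · rw [xx_ge (not_lt.1 hr)]; exact one_mem _

/-- Commutators in `P₄`. -/
def tabP : List (List (ℕ × ℕ)) := [[(16, 22)], [(15, 25)], [(15, 26)], [(15, 28), (16, 30)],
  [(15, 29), (17, 31)], [(16, 29), (17, 32)], [(15, 30)], [(15, 31)], [(16, 30)], [(17, 31)], [(16, 32)],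
  [(17, 32)], [(18, 31), (15, 30)], [(18, 32), (16, 30)], [(19, 32), (17, 31)], [(21, 32)], [(22, 32)],
  [(25, 31)], [(18, 36)], [(18, 38)], [(18, 39)], [(19, 39)], [(18, 40)], [(19, 40)], [(20, 40)],
  [(27, 39)], [(15, 46)], [(15, 47)], [(16, 47)], [(33, 40)], [(21, 47)], [(23, 47)], [(24, 46)]]

theorem perf_P4 : ⁅UU 15, UU 15⁆ = UU 15 := by
  refine le_antisymm (commutator_le_self _) (UU_le.2 fun r h hr => ?_)
  have t : ∀ r ∈ up 15, Q [r] (cmw (tabP.getD (r - 15) [])) = true ∧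
      ∀ p ∈ tabP.getD (r - 15) [], 15 ≤ p.1 ∧ 15 ≤ p.2 := by decide +kernel
  obtain ⟨q, hq⟩ := t r (mem_up.2 ⟨h, hr⟩)
  exact mem_of_cmw q fun p hp => cmt_mem (xx_mem_UU (hq p hp).1) (xx_mem_UU (hq p hp).2)

theorem zS {v : L0} (h : ∀ s ∈ 20 :: up 24, v * xx s * v⁻¹ * xx s ∈ UU 42) : v ∈ UU 41 := by
  have h' : ∀ s ∈ up 24, v * xx s * v⁻¹ * xx s ∈ UU 42 := fun s hs => h s (by simp [hs])
  have hU : v ∈ UU 24 := by
    rw [← norm_U]
    refine norm_of ?_
    rintro _ ⟨s, hs, rfl⟩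
    exact (mul_mem_cancel_right (xx_mem hs)).1 (UU_mono (by omega) (h' s hs))
  obtain ⟨q, h1, u, hu, e⟩ := srch_ok (lf := fun q => or' (Q q []) (Q q [40])) (k := 24) (n := 17)
    (T := tC 42 (up 24)) (by decide +kernel) le_rfl (by omega) hU (tC_ok (by omega) (by decide) h')
  simp only [or'_eq_true, Q_iff, el_nil, el_cons, mul_one] at h1
  rcases h1 with k | k <;> rw [k] at e
  · rwa [e, mul_one]
  · refine absurd (UU_mono (show 40 ≤ 41 by omega) ?_) (not_mem_UU (k := 39) (by omega) (by omega))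
    have a := UU_mono (show 41 ≤ 42 by omega) (h 20 (by simp))
    have b := PLocal.Amb.conj_mem_of_mem_normalizer (norm_V (xx_mem_UU (r := 20) (by omega))) hu
    have c : xx 39 = xx 40 * xx 20 * xx 40 * xx 20 := by
      simpa [mul_assoc] using Q_eq (u := [39]) (v := [40, 20, 40, 20]) (by decide +kernel)
    convert mul_mem (mul_mem (inv_mem hu) a) b using 1
    rw [c, e, mul_inv_rev, xx_inv, xx_inv]
    simp only [mul_assoc, inv_mul_cancel_left]
    rw [← mul_assoc (xx 20) (xx 20), xx_sq, one_mul, inv_mul_cancel_left]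

theorem spin {q : L0} (hq : q ∈ UU 33) (h : ∀ s, 24 ≤ s → s < 48 → q * xx s * q⁻¹ * xx s ∈ UU 41) :
    q ∈ UU 40 := srch_0 (k := 33) (n := 7) (T := tC 41 (up 24)) (by decide +kernel) (by omega) (by omega) hq
  (tC_ok (by omega) (by decide) fun s hs => h s (mem_up.1 hs).1 (mem_up.1 hs).2)

theorem no40 {a : L0} (h : ∀ r, 42 ≤ r → r < 48 → a * xx r = xx r * a) :
    a * xx 30 * a⁻¹ * xx 30 ≠ xx 40 := fun e => by
  obtain ⟨q, h1, -⟩ := srch_ok (lf := fun _ => false) (k := 24) (n := 24)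
    (T := tC 48 (up 42) ++ [(30, 48, [nf [40, 30]])]) (by decide +kernel) le_rfl le_rfl (mem_U h)
    (List.forall_mem_append.2 ⟨tC_ok' (by decide) fun s hs => h s (mem_up.1 hs).1 (mem_up.1 hs).2, by
      rw [← eq_mul_inv_iff_mul_eq, xx_inv] at e
      simp [(nf_ok (l := [40, 30]) (by decide)).2, e]⟩)
  exact Bool.noConfusion h1

end Cfsg.Agent.F42S
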