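import Cfsg.Agent.F42S.FbB

/-! The orthogonal module `V = UU 41` of `P₄ = UU 15`.

`V = ⟨x₄₁, …, x₄₇⟩` is elementary of order `2⁷` (`UU_nf`: masks `m < 128` over `up 41`), `P₄` acts on it as
`O₇(2)` with radical `x₄₄`, hyperbolic pairs `(47,41), (46,42), (45,43)` and quadratic form
`q(m) = m₄₄ + m₄₇ m₄₁ + m₄₆ m₄₂ + m₄₅ m₄₃`; `q = 0`: long class, `q = 1` (not `x₄₄`): class of
`z = x₄₇ x₄₄`.  Python model: /workdir/cfsg scratch is not shared; rebuild it from `cm` (a letter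
`x_s`, `15 ≤ s < 48`, acts on masks by `x_r ↦ x_r (cm s r)`).  All word identities: `Q_eq (by decide +kernel)`. -/

set_option autoImplicit false

namespace Cfsg.Agent.F42S

open Cfsg Cfsg.Agent.Comp Subgroup Cfsg.Agent.PLocal.Amb
open Cfsg.Agent.WG (el el_nil el_cons el_append)
open scoped commutatorElement
open FbA

/-- PROOF. 128 masks; for each a conjugating word in the letters `15..32` (BFS in python), checked by `Q`. -/
theorem FV {v : L0} (hv : v ∈ UU 41) : v = 1 ∨ v = xx 44 ∨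
    (∃ p ∈ UU 15, p * xx 47 * p⁻¹ = v) ∨ ∃ p ∈ UU 15, p * (xx 47 * xx 44) * p⁻¹ = v := by
  obtain ⟨m, hm, rfl⟩ := exists_vm hv
  exact (FVm hm).imp (fun e => by rw [e, vm_zero]) (Or.imp (fun e => by rw [e, vm8])
    (Or.imp And.right And.right))

theorem FbA.stage (θ : L0 → L0) (h1 : ∀ v ∈ UU 41, θ v ∈ UU 41)
    (h2 : ∀ u ∈ UU 41, ∀ v ∈ UU 41, θ (u * v) = θ u * θ v) (h3 : θ (xx 44) = xx 44)
    (h4 : ∀ v ∈ UU 41, IsConj (xx 47) (θ v) ↔ IsConj (xx 47) v) (F : List ℕ) (b : ℕ) (T : List (List ℕ))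
    (hT : b < 128 ∧ (∀ f ∈ F, f < 128) ∧ ∀ m < 128, Lm m = Lm b →
      (∀ f ∈ F, Lm (m ^^^ f) = Lm (b ^^^ f) ∧ Lm (m ^^^ f ^^^ 8) = Lm (b ^^^ f ^^^ 8)) →
      ∃ w ∈ T, Lv w ∧ ac w m = b ∧ ∀ f ∈ F, ac w f = f)
    (h : ∃ p ∈ UU 15, ∀ f ∈ F, p * θ (vm f) * p⁻¹ = vm f) :
    ∃ p ∈ UU 15, ∀ f ∈ b :: F, p * θ (vm f) * p⁻¹ = vm f := by
  obtain ⟨p, hp, h⟩ := h
  obtain ⟨hb, hF, hT⟩ := hT
  obtain ⟨m, hm, e⟩ := exists_vm (PLocal.Amb.conj_mem_of_mem_normalizer (norm_V hp) (h1 _ (vm_mem b)))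
  have k : ∀ x < 128, ∀ y < 128, p * θ (vm x) * p⁻¹ = vm y → Lm y = Lm x := fun x hx y hy e => by
    have c : IsConj (θ (vm x)) (vm y) := isConj_iff.2 ⟨p, e⟩
    rw [Bool.eq_iff_iff, ← conj47 hx, ← conj47 hy, ← h4 _ (vm_mem x)]
    exact ⟨fun l => l.trans c.symm, fun l => l.trans c⟩
  have a : ∀ x y x' y', p * θ (vm x) * p⁻¹ = vm y → p * θ (vm x') * p⁻¹ = vm y' →
      p * θ (vm (x ^^^ x')) * p⁻¹ = vm (y ^^^ y') := fun x y x' y' e e' => by
    rw [← vm_mul, ← vm_mul, h2 _ (vm_mem _) _ (vm_mem _), ← conj_mul, e, e']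
  have e8 : p * θ (vm 8) * p⁻¹ = vm 8 := by rw [vm8, h3, c44.2 hp, mul_inv_cancel_right]
  obtain ⟨w, -, hw, e1, e2⟩ := hT m hm (k b hb m hm e) fun f hf =>
    ⟨k _ (xor_lt hb (hF f hf)) _ (xor_lt hm (hF f hf)) (a _ _ _ _ e (h f hf)),
      k _ (xor_lt (xor_lt hb (hF f hf)) (by omega)) _ (xor_lt (xor_lt hm (hF f hf)) (by omega))
        (a _ _ _ _ (a _ _ _ _ e (h f hf)) e8)⟩
  have c : ∀ x y, y < 128 → p * θ (vm x) * p⁻¹ = vm y →
      el xx w * p * θ (vm x) * (el xx w * p)⁻¹ = vm (ac w y) := fun x y hy e => by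
    have := (hw.ac hy).2
    rw [← this, ← e]; group
  refine ⟨el xx w * p, mul_mem hw.mem hp, List.forall_mem_cons.2 ⟨?_, fun f hf => ?_⟩⟩
  · rw [c b m hm e, e1]
  · rw [c f f (hF f hf) (h f hf), e2 f hf]

/-- Witt's theorem for `V`.  PROOF.  With `FV`, `ncls`: `IsConj (xx 47) (mask m) ↔ q m = 0 ∧ m ≠ 0`.
Adjust `θ` by `P₄` in six stages so that it fixes `x₄₇, x₄₁, x₄₆, x₄₂, x₄₅, x₄₃` in turn: at each stage
the image is a long mask whose products with the vectors fixed so far have the right class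
(63, 32, 15, 8, 3, 2 candidates); a table of words in `P₄` fixing the earlier vectors moves it
back.  Then `θ` is trivial on the generators. -/
theorem witt (θ : L0 → L0) (h1 : ∀ v ∈ UU 41, θ v ∈ UU 41)
    (h2 : ∀ u ∈ UU 41, ∀ v ∈ UU 41, θ (u * v) = θ u * θ v) (h3 : θ (xx 44) = xx 44)
    (h4 : ∀ v ∈ UU 41, IsConj (xx 47) (θ v) ↔ IsConj (xx 47) v) :
    ∃ p ∈ UU 15, ∀ v ∈ UU 41, θ v = p * v * p⁻¹ := by
  have st := fun F b T => FbA.stage θ h1 h2 h3 h4 F b T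
  obtain ⟨p, hp, e⟩ := st _ 4 [[], [27]] (by decide +kernel) (st _ 16 [[20, 27], [], [20]] (by decide +kernel)
    (st _ 2 [[], [25], [30], [25, 27], [28], [25, 28], [25, 30], [28, 30]] (by decide +kernel)
    (st _ 32 [[19, 28], [17, 30], [17, 19, 28], [22, 25], [17, 22, 25], [17, 27, 25], [17, 19, 30], [],
      [17], [19], [17, 19], [22], [17, 22], [19, 22], [17, 27]] (by decide +kernel)
    (st _ 1 [[], [24], [26], [24, 25], [31], [24, 30], [26, 27], [24, 25, 27], [32], [26, 30], [24, 28],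
      [24, 25, 28], [31, 25], [24, 25, 30], [24, 28, 22], [26, 27, 25], [29], [24, 29], [26, 29],
      [24, 25, 29], [26, 31], [24, 25, 31], [29, 31], [24, 29, 30], [24, 32], [24, 25, 32], [29, 32],
      [26, 29, 30], [24, 30, 32], [26, 30, 31], [29, 31, 25], [24, 25, 27, 32]] (by decide +kernel)
    (st [] 64 T1 (by decide +kernel) ⟨1, one_mem _, by simp⟩)))))
  refine ⟨p⁻¹, inv_mem hp, fun v hv => ?_⟩
  suffices h : p * θ v * p⁻¹ = v by
    calc θ v = p⁻¹ * (p * θ v * p⁻¹) * p⁻¹⁻¹ := by group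
      _ = _ := by rw [h]
  have o : θ 1 = 1 := by simpa using h2 1 (one_mem _) 1 (one_mem _)
  induction hv using closure_induction with
  | mem g hg =>
    obtain ⟨r, hr, rfl⟩ := hg
    rw [mem_up] at hr
    by_cases k : r = 44
    · rw [k, h3, c44.2 hp, mul_inv_cancel_right]
    · rw [← vm_pow hr.1 hr.2]
      refine e _ ?_
      obtain ⟨a, b⟩ := hr
      interval_cases r <;> simp at k ⊢
  | one => simp [o]
  | mul a b ha hb k1 k2 => rw [h2 a ha b hb, ← conj_mul, k1, k2]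
  | inv a ha k =>
    have : a⁻¹ = a := inv_eq_of_mul_eq_one_right (V_sq ha)
    rw [this]; exact k

/-- The number of `c ∈ O` with `d + c ∈ O`. -/
def FbA.Fm (d : ℕ) : ℕ := ((Finset.range 128).filter fun c => Om c = true ∧ Om (d ^^^ c) = true).card

theorem FbA.affm (π : ℕ → ℕ) (h1 : ∀ m, π m < 128) (h2 : ∀ m n, π (m ^^^ n) = π m ^^^ π n)
    (h3 : ∀ m < 128, π m = 0 → m = 0) (h4 : ∀ m < 128, Om m = Om (72 ^^^ π m)) : False := by
  have inj : ∀ m < 128, ∀ n < 128, π m = π n → m = n := fun m hm n hn e =>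
    Nat.eq_of_xor_eq_zero (h3 _ (xor_lt hm hn) (by rw [h2, e, Nat.xor_self]))
  have sur : ∀ n < 128, ∃ m < 128, π m = n := fun n hn => by
    obtain ⟨m, hm, e⟩ := Finset.surj_on_of_inj_on_of_card_le (s := Finset.range 128)
      (t := Finset.range 128) (fun m _ => π m) (fun m _ => Finset.mem_range.2 (h1 m))
      (fun m n hm hn => inj m (Finset.mem_range.1 hm) n (Finset.mem_range.1 hn)) le_rfl n
      (Finset.mem_range.2 hn)
    exact ⟨m, Finset.mem_range.1 hm, e.symm⟩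
  obtain ⟨d, hd, e⟩ := sur 40 (by omega)
  have k : ∀ c < 128, Om (d ^^^ c) = Om (40 ^^^ (72 ^^^ π c)) := fun c hc => by
    rw [h4 _ (xor_lt hd hc), h2, e, Nat.xor_left_comm]
  have : Fm d = Fm 40 := by
    refine Finset.card_nbij (fun c => 72 ^^^ π c) (fun c hc => ?_) (fun c hc c' hc' l => ?_)
      fun c hc => ?_
    · simp only [Finset.coe_filter, Finset.mem_range, Set.mem_ofPred_eq] at hc ⊢
      exact ⟨xor_lt (by omega) (h1 c), h4 c hc.1 ▸ hc.2.1, k c hc.1 ▸ hc.2.2⟩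
    · simp only [Finset.coe_filter, Finset.mem_range, Set.mem_ofPred_eq] at hc hc'
      exact inj c hc.1 c' hc'.1 (Nat.xor_right_inj.1 l)
    · simp only [Finset.coe_filter, Finset.mem_range, Set.mem_ofPred_eq] at hc
      obtain ⟨b, hb, l⟩ := sur (72 ^^^ c) (xor_lt (by omega) hc.1)
      have l' : 72 ^^^ π b = c := by rw [l, Nat.xor_xor_cancel_left]
      refine ⟨b, ?_, l'⟩
      simp only [Finset.coe_filter, Finset.mem_range, Set.mem_ofPred_eq]
      exact ⟨hb, by rw [h4 b hb, l', hc.2.1], by rw [k b hb, l', hc.2.2]⟩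
  have t : ∀ d < 128, Fm d = 34 → Om d = true := by decide +kernel
  have t2 : Fm 40 = 34 := by decide +kernel
  have := t d hd (this.trans t2)
  rw [h4 d hd, e] at this
  exact absurd this (by decide)

/-- No affine map of `V` moving `1` preserves `O = {1} ∪ z^L`.  PROOF.  On masks `θ` is an additive
permutation `π`; `c ↦ z + π c` is a bijection preserving `O`, so `F d = #{c ∈ O | d + c ∈ O}` satisfies
`F (π d) = F d`.  `F` takes different values on `0`, `x₄₄`, the long class and the class of `z`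
(64, 0, 34/30; `decide`), so `π` permutes the class of `z`; take `c` in it with `z + π c` long. -/
theorem aff (θ : L0 → L0) (h1 : ∀ v ∈ UU 41, θ v ∈ UU 41)
    (h2 : ∀ u ∈ UU 41, ∀ v ∈ UU 41, θ (u * v) = θ u * θ v)
    (h3 : ∀ v ∈ UU 41, θ v = 1 → v = 1)
    (h4 : ∀ v ∈ UU 41, (v = 1 ∨ IsConj (xx 47 * xx 44) v) ↔
      (xx 47 * xx 44 * θ v = 1 ∨ IsConj (xx 47 * xx 44) (xx 47 * xx 44 * θ v))) : False := by
  have : ∀ m, ∃ n < 128, θ (vm m) = vm n := fun m => exists_vm (h1 _ (vm_mem m))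
  choose π k1 k2 using this
  refine FbA.affm π k1 (fun m n => vm_inj (k1 _) (xor_lt (k1 _) (k1 _)) ?_) (fun m hm e => ?_)
    fun m hm => ?_
  · rw [← vm_mul, ← k2, ← k2, ← k2, ← vm_mul, h2 _ (vm_mem _) _ (vm_mem _)]
  · exact vm_inj hm (by omega) (by rw [vm_zero]; exact h3 _ (vm_mem m) (by rw [k2, e, vm_zero]))
  · rw [Bool.eq_iff_iff, ← conjz hm, ← conjz (xor_lt (by omega) (k1 m)), h4 _ (vm_mem m), ← vm_mul, vm72, k2]

/-- PROOF. 128 masks, oracle. -/
theorem fixV {v : L0} (hv : v ∈ UU 41) (h : ∀ s ∈ [21, 22, 23, 24, 25, 26],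
    xx s * v * xx s * v = 1 ∨ xx s * v * xx s * v = xx 44) : v = 1 ∨ v = xx 44 := by
  obtain ⟨m, hm, rfl⟩ := exists_vm hv
  have t : ∀ m < 128, (∀ s ∈ [21, 22, 23, 24, 25, 26], act s m ^^^ m = 0 ∨ act s m ^^^ m = 8) →
      m = 0 ∨ m = 8 := by decide +kernel
  refine (t m hm fun s hs => ?_).imp (fun e => by rw [e, vm_zero]) fun e => by rw [e, vm8]
  have b : 15 ≤ s ∧ s ≤ 32 := by revert s; decide
  have k := h s hs
  rw [xx_vm b.1 b.2 hm, mul_assoc (vm _), xx_sq, mul_one, vm_mul, ← vm_zero, ← vm8] at k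
  exact k.imp (vm_inj (xor_lt (act_lt _ _) hm) (by omega)) (vm_inj (xor_lt (act_lt _ _) hm) (by omega))

/-- PROOF. `q = ∏ x_{73 - r}` over the `r` with `f r = true`; 256 masks, oracle. -/
theorem nondeg (f : ℕ → Bool) : ∃ q ∈ UU 33, ∀ r, 33 ≤ r → r ≤ 40 →
    q * xx r * q⁻¹ = xx r * (if f r then xx 44 else 1) := by
  have t : ∀ s ∈ List.range' 33 8, ∀ r ∈ List.range' 33 8,
      Q [73 - s, r] (r :: (if r = s then [44] else []) ++ [73 - s]) = true := by decide +kernel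
  have key : ∀ k ≤ 8, ∃ q ∈ UU 33, ∀ r, 33 ≤ r → r ≤ 40 →
      q * xx r * q⁻¹ = xx r * (if f r = true ∧ r < 33 + k then xx 44 else 1) := fun k => by
    induction k with
    | zero => exact fun _ => ⟨1, one_mem _, fun r h _ => by rw [if_neg (by omega)]; simp⟩
    | succ k ih =>
      intro hk
      obtain ⟨q, hq, e⟩ := ih (by omega)
      by_cases c : f (33 + k) = true
      · refine ⟨xx (73 - (33 + k)) * q, mul_mem (xx_mem_UU (by omega)) hq, fun r a b => ?_⟩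
        have l := Q_eq (t (33 + k) (by rw [List.mem_range'_1]; omega) r (by rw [List.mem_range'_1]; omega))
        have m := V_comm (xx_mem_UU (k := 33) (r := 73 - (33 + k)) (by omega))
          (xx_mem_UU (r := 44) (by omega))
        rw [mul_inv_rev, mul_assoc _ q, mul_assoc, ← mul_assoc (q * _), e r a b, mul_assoc, ← mul_assoc,
          ← mul_assoc, mul_inv_eq_iff_eq_mul]
        by_cases d : r = 33 + k
        · rw [if_neg (by omega), if_pos ⟨d ▸ c, by omega⟩]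
          simpa [d, mul_assoc] using l
        · simp only [if_neg d, el_cons, el_nil, mul_one, List.cons_append, List.nil_append] at l
          simp only [l, show (r < 33 + (k + 1)) = (r < 33 + k) by rw [eq_iff_iff]; omega]
          split_ifs
          · rw [mul_assoc, m, mul_assoc]
          · simp
      · refine ⟨q, hq, fun r a b => ?_⟩
        rw [e r a b]
        congr 2
        rw [eq_iff_iff]
        refine and_congr_right fun l => ⟨by omega, fun m => ?_⟩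
        by_contra n
        exact c (by rwa [show 33 + k = r by omega])
  obtain ⟨q, hq, e⟩ := key 8 le_rfl
  exact ⟨q, hq, fun r a b => by rw [e r a b]; simp [show r < 41 by omega]⟩

/-- PROOF. words `sg w`, `w` in the letters `1, 2, 3` (`sg_conj` or oracle). -/
theorem spin_orb {r : ℕ} (h : 33 ≤ r) (h' : r ≤ 40) : ∃ p ∈ UU 15, p * xx 40 * p⁻¹ = xx r := by
  have t : ∀ r ∈ List.range' 33 8, ∃ w ∈ [[], [1], [2, 1], [1, 2, 1], [3, 2, 1], [3, 1, 2, 1],
      [2, 3, 1, 2, 1], [1, 2, 3, 1, 2, 1]], (∀ i ∈ w, i < 4) ∧ aw w 40 = r ∧ ∀ a ∈ sg w, 15 ≤ a := by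
    decide +kernel
  obtain ⟨w, -, h1, h2, h3⟩ := t r (by rw [List.mem_range'_1]; omega)
  exact ⟨_, el_mem fun a ha => xx_mem_UU (h3 a ha), by rw [sg_conj h1 (by omega), h2]⟩

set_option synthInstance.maxSize 2000 in
/-- PROOF. for each `r` a root `s` at `45°` with `x_s ∈ U'` (`com_U`); `orb2` + `sg_conj` for the class. -/
theorem zpair {r : ℕ} (h : 24 ≤ r) (h' : r < 48) :
    ∃ s, xx s ∈ ⁅UU 24, UU 24⁆ ∧ IsConj (xx 47 * xx 44) (xx r * xx s) := by
  have t : ∀ r < 48, 24 ≤ r → ∃ s < 48, 24 ≤ s ∧ s ∉ [24, 25, 27, 28, 30, 33] ∧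
      ((lg 47 = lg r ∧ lg 44 = lg s ∧ ip 47 44 = ip r s) ∨
        (lg 44 = lg r ∧ lg 47 = lg s ∧ ip 44 47 = ip r s)) := by decide +kernel
  obtain ⟨s, h1, h2, h3, h4⟩ := t r h' h
  refine ⟨s, com_U h2 h3, ?_⟩
  have k : ∀ a b, a < 48 → b < 48 → lg a = lg r → lg b = lg s → ip a b = ip r s →
      IsConj (xx a * xx b) (xx r * xx s) := fun a b ha hb e1 e2 e3 => by
    obtain ⟨w, k1, k2, k3⟩ := orb2 ha hb h' h1 e1 e2 e3
    exact isConj_iff.2 ⟨el xx (sg w), by rw [← conj_mul, sg_conj k1 ha, sg_conj k1 hb, k2, k3]⟩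
  rcases h4 with ⟨e1, e2, e3⟩ | ⟨e1, e2, e3⟩
  · exact k 47 44 (by omega) (by omega) e1 e2 e3
  · rw [V_comm (xx_mem_UU (r := 47) (by omega)) (xx_mem_UU (by omega))]
    exact k 44 47 (by omega) (by omega) e1 e2 e3

/-- The cocycle lemma.  `c s ∈ V` is such that `x_s ↦ c s * x_s` (`15 ≤ s ≤ 32`) respects the relations.
PROOF (`z_s = x₄₄`, `u_a = z_s x_{44+a}` for the short `a = ±e_j ∈ {18,19,20,27,28,29}`; `x_a` acts on `V` as
the reflection in `u_a`).  (1) `hc` for `a` and the `s` commuting with it gives `[c a, x_s] ∈ ⟨u_a⟩`, so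
`c a ∈ ⟨z_s, x_{44+a}⟩`.  (2) replacing `c s` by `v (c s) x_s v x_s` changes `c a` by `u_a^{B(v,u_a)}`; the six
`u_a` are a basis of `V/z_s`, so wlog `c a = x_{44+a}^{ε a}`.  (3) `b = e_i + e_j` long commutes with
`x_{e_i}, x_{e_j}, x_{±e_k}`: `c b ∈ ⟨z_s, x_{e₁+e_i}, x_{e₁+e_j}⟩`; the relation of `(b, -e_j)`
(`cm = [e_i, e_i - e_j]`) gives `ε (-e_j) = ε (e_i)` up to the same `β`, `c b' = (z_s x x)^β`; the relations
`(24,30), (25,31), …` of long roots give `β = 0`.  Easiest: translate everything to masks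
(`c s = bw (up 41) (m s)`, action tables checked once by `Q`) and finish each step by `decide` over few masks. -/
theorem cocy (c : ℕ → L0) (h1 : ∀ s, 15 ≤ s → s ≤ 32 → c s ∈ UU 41)
    (h2 : ∀ s, 15 ≤ s → s ≤ 32 → c s * xx s * (c s * xx s) = 1)
    (hc : ∀ r s, 15 ≤ r → r ≤ 32 → 15 ≤ s → s ≤ 32 → s ≠ 47 - r → c s * xx s * (c r * xx r) =
      c r * xx r * (c s * xx s) * el (fun k => c k * xx k) (cm r s)) :
    ∃ v ∈ UU 41, ∃ e ≤ 1, ∀ s, 15 ≤ s → s ≤ 32 → c s * xx s =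
      v * (xx s * (if lg s then 1 else xx (ad 44 s) ^ e)) * v⁻¹ := by
  obtain ⟨μ, hμ, k⟩ := exists_Cc h1 hc
  obtain ⟨ν, hν, k1⟩ := hμ.nu
  have e1 : ∀ s, (vm ν)⁻¹ * (c s * xx s) * vm ν * xx s * xx s = (vm ν)⁻¹ * (c s * xx s) * vm ν :=
    fun s => by rw [mul_assoc, xx_sq, mul_one]
  have e2 : ∀ s, 15 ≤ s → s ≤ 32 →
      (vm ν)⁻¹ * (c s * xx s) * vm ν * xx s = vm (ν ^^^ (μ s ^^^ act s ν)) := fun s a b => by
    rw [vm_inv, k s a b, ← vm_mul, ← vm_mul, mul_assoc (vm ν), mul_assoc (vm (μ s)), xx_vm a b hν]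
    simp only [mul_assoc, xx_sq, mul_one]
  obtain ⟨μ', hμ', k'⟩ := exists_Cc (c := fun s => (vm ν)⁻¹ * (c s * xx s) * vm ν * xx s)
    (fun s a b => by rw [e2 s a b]; exact vm_mem _) fun r s a b a' b' l => by
      have := congrArg (MulAut.conj (vm ν)⁻¹).toMonoidHom (hc r s a b a' b' l)
      rw [map_mul _ (c s * xx s), map_mul _ _ (el _ _), map_mul _ (c r * xx r), map_el] at this
      simpa only [e1, MulEquiv.coe_toMonoidHom, MulAut.conj_apply, inv_inv] using this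
  obtain ⟨e, he, k2⟩ := hμ'.norm fun s hs l => by
    have b := mem_RR.1 hs
    rw [← vm_inj (xor_lt hν (xor_lt (hμ.lt s) (act_lt _ _))) (hμ'.lt s)
      ((e2 s b.1 b.2).symm.trans (k' s b.1 b.2))]
    exact k1 s hs l
  refine ⟨vm ν, vm_mem ν, e, he, fun s a b => ?_⟩
  have t : ∀ s ∈ RR, ∀ e ≤ 1, Q (bw (up 41) (if lg s then 0 else e * ym s) ++ [s])
      (s :: if lg s then [] else List.replicate e (ad 44 s)) = true := by decide +kernel
  have l := Q_eq (t s (mem_RR.2 ⟨a, b⟩) e he)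
  rw [← k2 s (mem_RR.2 ⟨a, b⟩), el_append, el_cons, el_cons, el_nil, mul_one, ← vm, ← k' s a b, e1] at l
  have m : (if lg s = true then 1 else xx (ad 44 s) ^ e) =
      el xx (if lg s then [] else List.replicate e (ad 44 s)) := by
    split_ifs <;> simp [el]
  rw [m, ← l]; group

end Cfsg.Agent.F42S
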