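import Cfsg.Agent.F42S.FbA

/-! The cocycle computation for `V`, on masks. -/

set_option autoImplicit false

namespace Cfsg.Agent.F42S.FbA

open Cfsg Cfsg.Agent.Comp Subgroup Cfsg.Agent.PLocal.Amb
open Cfsg.Agent.WG (el el_nil el_cons el_append)

/-- The roots of the Levi factor. -/
def RR : List ℕ := [15, 16, 17, 18, 19, 20, 21, 22, 23, 24, 25, 26, 27, 28, 29, 30, 31, 32]

theorem mem_RR {s : ℕ} : s ∈ RR ↔ 15 ≤ s ∧ s ≤ 32 := by
  simp only [RR, List.mem_cons, List.not_mem_nil, or_false]; omega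

/-- The first letter of the commutator word. -/
def k1 (r s : ℕ) : ℕ := (cm r s).getD 0 0

/-- The second letter of the commutator word. -/
def k2 (r s : ℕ) : ℕ := (cm r s).getD 1 0

/-- The relation of the pair `r, s` on masks. -/
def Eq4 (r s a b c d : ℕ) : Prop :=
  b ^^^ act s a = a ^^^ act r (b ^^^ act s (c ^^^ act (k1 r s) d))

instance instDecEq4 (r s a b c d : ℕ) : Decidable (Eq4 r s a b c d) :=
  inferInstanceAs (Decidable (_ = _))

/-- A cocycle on masks. -/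
structure Cc (μ : ℕ → ℕ) : Prop where
  z : μ 0 = 0
  lt : ∀ s, μ s < 128
  rel : ∀ r ∈ RR, ∀ s ∈ RR, s ≠ 47 - r → Eq4 r s (μ r) (μ s) (μ (k1 r s)) (μ (k2 r s))

set_option synthInstance.maxSize 2000 in
theorem tab_k : ∀ r ∈ RR, ∀ s ∈ RR, s ≠ 47 - r → (cm r s).length ≤ 2 ∧ Lv (cm r s) ∧
    (k1 r s = 0 ∨ k1 r s ∈ RR) ∧ (k2 r s = 0 ∨ k2 r s ∈ RR) := by decide +kernel

/-- The mask of a word in the letters `c_k x_k`. -/
def cw (μ : ℕ → ℕ) (w : List ℕ) : ℕ := w.foldr (fun k m => μ k ^^^ act k m) 0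

theorem el_cw {c : ℕ → L0} {μ : ℕ → ℕ} (h : ∀ s, 15 ≤ s → s ≤ 32 → c s = vm (μ s))
    (h' : ∀ s, μ s < 128) {w : List ℕ} (hw : Lv w) :
    cw μ w < 128 ∧ el (fun k => c k * xx k) w = vm (cw μ w) * el xx w := by
  induction w with
  | nil => exact ⟨by simp [cw], by simp [cw, vm_zero]⟩
  | cons a w ih =>
    have := ih fun s hs => hw s (by simp [hs])
    have ha := hw a (by simp)
    have e : cw μ (a :: w) = μ a ^^^ act a (cw μ w) := rfl
    refine ⟨xor_lt (h' a) (act_lt _ _), ?_⟩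
    have k := xx_vm ha.1 ha.2 this.1
    rw [e, el_cons, el_cons, this.2, h a ha.1 ha.2, ← vm_mul, mul_assoc, mul_assoc, ← mul_assoc (xx a),
      k, mul_assoc]

theorem exists_Cc {c : ℕ → L0} (h1 : ∀ s, 15 ≤ s → s ≤ 32 → c s ∈ UU 41)
    (hc : ∀ r s, 15 ≤ r → r ≤ 32 → 15 ≤ s → s ≤ 32 → s ≠ 47 - r → c s * xx s * (c r * xx r) =
      c r * xx r * (c s * xx s) * el (fun k => c k * xx k) (cm r s)) :
    ∃ μ, Cc μ ∧ ∀ s, 15 ≤ s → s ≤ 32 → c s = vm (μ s) := by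
  have : ∀ s, ∃ m < 128, (15 ≤ s → s ≤ 32 → c s = vm m) ∧ (s = 0 → m = 0) := fun s => by
    by_cases h : 15 ≤ s ∧ s ≤ 32
    · obtain ⟨m, hm, e⟩ := exists_vm (h1 s h.1 h.2)
      exact ⟨m, hm, fun _ _ => e, fun k => by omega⟩
    · exact ⟨0, by omega, fun a b => absurd ⟨a, b⟩ h, fun _ => rfl⟩
  choose μ h2 h3 h4 using this
  refine ⟨μ, ⟨h4 0 rfl, h2, fun r hr s hs k => ?_⟩, h3⟩
  obtain ⟨t1, t2, -⟩ := tab_k r hr s hs k
  rw [mem_RR] at hr hs
  have a := el_cw h3 h2 (w := [s, r]) (by simp [Lv, hr, hs])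
  have b := el_cw h3 h2 (w := r :: s :: cm r s) (by simpa [Lv, hr, hs] using t2)
  have e := hc r s hr.1 hr.2 hs.1 hs.2 k
  have e' : vm (cw μ [s, r]) = vm (cw μ (r :: s :: cm r s)) := by
    have q := xx_comm (r := r) (s := s) (by omega) (by omega) k
    have a2 := a.2
    have b2 := b.2
    simp only [el_cons, el_nil, mul_one] at a2 b2
    rw [e, q, mul_assoc (c r * xx r), b2, mul_assoc (xx r)] at a2
    exact (mul_right_cancel a2).symm
  have e2 := vm_inj a.1 b.1 e'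
  have z : ∀ s ∈ 0 :: RR, act s 0 = 0 := by decide +kernel
  have e3 : cw μ (cm r s) = μ (k1 r s) ^^^ act (k1 r s) (μ (k2 r s)) := by
    rw [k1, k2]
    match cm r s, t1, t2 with
    | [], _, _ => simp [cw, h4 0 rfl, z]
    | [a], _, _ => simp [cw, h4 0 rfl]
    | [a, b], _, t => simp [cw, z b (.tail _ (mem_RR.2 (t b (by simp))))]
  have e4 : μ s ^^^ act s (μ r ^^^ act r 0) = μ r ^^^ act r (μ s ^^^ act s (cw μ (cm r s))) := e2
  rwa [z r (.tail _ (mem_RR.2 hr)), Nat.xor_zero, e3] at e4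

theorem Cc.com {μ : ℕ → ℕ} (h : Cc μ) {r s : ℕ} (hr : r ∈ RR) (hs : s ∈ RR) (k : s ≠ 47 - r)
    (e : cm r s = []) : μ r ^^^ act s (μ r) = μ s ^^^ act r (μ s) := by
  have z : ∀ s ∈ RR, act s (0 ^^^ act 0 0) = 0 := by decide +kernel
  have := h.rel r hr s hs k
  rw [Eq4, k1, k2, e, List.getD_nil, List.getD_nil, h.z, z s hs, Nat.xor_zero] at this
  rw [← Nat.xor_xor_cancel_left (μ s) (act s (μ r)), this, ← Nat.xor_assoc, ← Nat.xor_assoc,
    Nat.xor_comm (μ r) (μ s), Nat.xor_assoc (μ s), Nat.xor_self, Nat.xor_zero]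

/-- The domains when `μ k = m`. -/
def dm (C : ℕ → List ℕ) (k m t : ℕ) : List ℕ := if t = k then [m] else if t = 0 then [0] else C t

/-- The relations used for each root. -/
def tabW : List (List (ℕ × ℕ)) := [[(16, 22), (18, 24), (19, 23)], [(15, 25), (18, 26), (20, 21)],
  [(15, 26), (19, 25), (20, 22)], [], [(18, 24)], [(18, 26)], [(15, 30), (16, 27), (18, 31)],
  [(15, 31), (17, 27), (19, 30)], [(15, 28), (16, 30), (18, 32)], [(15, 29), (17, 31), (19, 32)],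
  [(16, 32), (17, 28), (20, 30)], [(16, 29), (17, 32), (20, 31)], [(16, 27)], [(15, 28)], [(15, 29)],
  [(21, 32), (22, 28), (25, 27)], [(21, 29), (22, 32), (26, 27)], [(23, 29), (24, 28), (25, 31)]]

theorem Cc.step {μ : ℕ → ℕ} (h : Cc μ) {C : ℕ → List ℕ} (C' : ℕ → List ℕ) (hC : ∀ s ∈ RR, μ s ∈ C s)
    (ht : ∀ k ∈ RR, ∀ m ∈ C k, m ∈ C' k ∨ ∃ q ∈ tabW.getD (k - 15) [], q.1 ∈ RR ∧ q.2 ∈ RR ∧
      q.2 ≠ 47 - q.1 ∧ ∀ a ∈ dm C k m q.1, ∀ b ∈ dm C k m q.2, ∀ c ∈ dm C k m (k1 q.1 q.2),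
        ∀ d ∈ dm C k m (k2 q.1 q.2), ¬ Eq4 q.1 q.2 a b c d) : ∀ s ∈ RR, μ s ∈ C' s := fun k hk => by
  have key : ∀ t, t = 0 ∨ t ∈ RR → μ t ∈ dm C k (μ k) t := fun t ht => by
    rw [dm]
    split_ifs with a b
    · simp [a]
    · simp [b, h.z]
    · exact hC t (ht.resolve_left b)
  refine (ht k hk _ (hC k hk)).resolve_right fun ⟨⟨r, s⟩, _, hr, hs, e, q⟩ => ?_
  have t := tab_k r hr s hs e
  exact q _ (key r (.inr hr)) _ (key s (.inr hs)) _ (key _ t.2.2.1) _ (key _ t.2.2.2) (h.rel r hr s hs e)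

/-- The mask of `x_{44 + a}`. -/
def ym (a : ℕ) : ℕ := 2 ^ (ad 44 a - 41)

set_option synthInstance.maxSize 2000 in
theorem Cc.short {μ : ℕ → ℕ} (h : Cc μ) {a : ℕ} (ha : a ∈ RR) (k : lg a = false) :
    μ a ∈ [0, 8, ym a, 8 ^^^ ym a] := by
  have t1 : ∀ a ∈ RR, lg a = false → ∀ n < 128, n ^^^ act a n ∈ [0, 8 ^^^ ym a] := by decide +kernel
  have t2 : ∀ a ∈ RR, lg a = false → ∀ m < 128, (∀ s ∈ RR, s ≠ 47 - a → cm a s = [] →
      m ^^^ act s m ∈ [0, 8 ^^^ ym a]) → m ∈ [0, 8, ym a, 8 ^^^ ym a] := by decide +kernel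
  exact t2 a ha k _ (h.lt a) fun s hs e c => by rw [h.com ha hs e c]; exact t1 a ha k _ (h.lt s)

/-- The span of `8`, `u`, `v`. -/
def sp (u v : ℕ) : List ℕ := [0, 8, u, u + 8, v, v + 8, u + v, u + v + 8]

/-- The candidates for the mask of a long root. -/
def t8 (s : ℕ) : List ℕ := sp (0x201010000000040402010201000000020101 >>> (8 * (s - 15)) % 256)
  (0x404020000000402040201010000000040402 >>> (8 * (s - 15)) % 256)

set_option synthInstance.maxSize 2000 in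
theorem Cc.norm {μ : ℕ → ℕ} (h : Cc μ) (h0 : ∀ s ∈ RR, lg s = false → μ s ∈ [0, ym s]) :
    ∃ e ≤ 1, ∀ s ∈ RR, μ s = if lg s then 0 else e * ym s := by
  have t : ∀ b ∈ RR, lg b = true → ∀ m < 128, (∀ a ∈ RR, lg a = false → a ≠ 47 - b → cm b a = [] →
      ∃ n ∈ [0, ym a], m ^^^ act a m = n ^^^ act b n) → m ∈ t8 b := by decide +kernel
  have h1 : ∀ s ∈ RR, μ s ∈ if lg s then t8 s else [0, ym s] := fun s hs => by
    cases k : lg s
    · exact h0 s hs k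
    · exact t s hs k _ (h.lt s) fun a ha k1 k2 k3 => ⟨_, h0 a ha k1, h.com hs ha k2 k3⟩
  have h2 := h.step (fun s => if lg s then [0] else [0, ym s]) h1 (by decide +kernel)
  have h3 : ∀ e ∈ [0, 1], μ 18 = e → ∀ s ∈ RR, μ s ∈ [if lg s then 0 else e * ym s] := fun e he h3 => by
    have h4 := h.step (C := fun s => if s = 18 then [e] else if lg s then [0] else [0, ym s])
      (fun s => if s = 29 then [0, 64] else [if lg s then 0 else e * ym s]) (fun s hs => by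
        split_ifs with a b
        · simp [a, h3]
        · simpa [b] using h2 s hs
        · simpa [b] using h2 s hs) (by clear h3; revert e; decide +kernel)
    exact h.step _ h4 (by clear h3 h4; revert e; decide +kernel)
  have h5 : μ 18 ∈ [0, 1] := h2 18 (by decide)
  refine ⟨μ 18, ?_, fun s hs => List.mem_singleton.1 (h3 _ h5 rfl s hs)⟩
  simp only [List.mem_cons, List.not_mem_nil, or_false] at h5
  omega

set_option synthInstance.maxSize 2000 in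
theorem Cc.nu {μ : ℕ → ℕ} (h : Cc μ) :
    ∃ ν < 128, ∀ a ∈ RR, lg a = false → ν ^^^ (μ a ^^^ act a ν) ∈ [0, ym a] := by
  have t : ∀ a ∈ RR, lg a = false → ∀ m ∈ [0, 8, ym a, 8 ^^^ ym a], ∀ ν < 128,
      ν / ym (47 - a) % 2 = m / 8 % 2 → ν ^^^ (m ^^^ act a ν) ∈ [0, ym a] := by decide +kernel
  refine ⟨μ 18 / 8 % 2 * 64 + μ 19 / 8 % 2 * 32 + μ 20 / 8 % 2 * 16 + μ 27 / 8 % 2 * 4 +
    μ 28 / 8 % 2 * 2 + μ 29 / 8 % 2, by omega, fun a ha k => t a ha k _ (h.short ha k) _ (by omega) ?_⟩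
  have : ∀ a ∈ RR, lg a = false → (a, ym (47 - a)) ∈
      [(18, 64), (19, 32), (20, 16), (27, 4), (28, 2), (29, 1)] := by decide +kernel
  have := this a ha k
  simp only [List.mem_cons, List.not_mem_nil, or_false, Prod.mk.injEq] at this
  rcases this with ⟨h1, e⟩ | ⟨h1, e⟩ | ⟨h1, e⟩ | ⟨h1, e⟩ | ⟨h1, e⟩ | ⟨h1, e⟩ <;> rw [e, h1] <;> omega

end Cfsg.Agent.F42S.FbA
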