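import Cfsg.Agent.F42S.Fa

/-! Outer involutions of `F₄(2)` and orders of fixed subgroups. -/

set_option autoImplicit false

namespace Cfsg.Agent.F42S

open Cfsg Cfsg.Agent.Comp Subgroup Cfsg.Agent.PLocal.Amb
open Cfsg.Agent.WG (el el_nil el_cons el_append)

theorem fc_xx (r : ℕ) (a : L0) : xx r * (xx r * a) = a := by rw [← mul_assoc, xx_sq, one_mul]

theorem fc_norm {r : ℕ} {l : List ℕ} (hr : 24 ≤ r ∧ r < 48) (hl : Pos l)
    (h : ∀ s ∈ l, ∀ k ∈ cm r s, k ∈ l) : xx r ∈ 𝐍[XX l] :=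
  XX_norm (l := [r]) (fun a ha s hs => by
    rw [List.mem_singleton.1 ha, xx_conj hr.2 (hl s hs).2 (by have := (hl s hs).1; omega)]
    exact mul_mem (xx_mem hs) (el_mem fun k hk => xx_mem (h s hs k hk))) (xx_mem (by simp))

theorem fc_step {r : ℕ} {l : List ℕ} (h : xx r ∈ 𝐍[XX l]) {g : L0} (hg : g ∈ XX (r :: l)) :
    g ∈ XX l ∨ xx r * g ∈ XX l := by
  have hn := fun a => PLocal.Amb.conj_mem_of_mem_normalizer (x := a) h
  simp only [xx_inv] at hn
  induction hg using closure_induction with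
  | mem g hg =>
    obtain ⟨s, hs, rfl⟩ := hg
    rcases List.mem_cons.1 hs with rfl | h
    · exact .inr (by rw [xx_sq]; exact one_mem _)
    · exact .inl (xx_mem h)
  | one => exact .inl (one_mem _)
  | mul a b _ _ h1 h2 =>
    rcases h1 with h1 | h1 <;> rcases h2 with h2 | h2
    · exact .inl (mul_mem h1 h2)
    · exact .inr (by simpa [mul_assoc, fc_xx] using mul_mem (hn _ h1) h2)
    · exact .inr (by simpa [mul_assoc] using mul_mem h1 h2)
    · exact .inl (by simpa [mul_assoc, fc_xx] using mul_mem (hn _ h1) h2)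
  | inv a _ h =>
    rcases h with h | h
    · exact .inl (inv_mem h)
    · exact .inr (by simpa [mul_assoc, xx_inv, xx_sq] using hn _ (inv_mem h))

theorem fc_inf {l : List ℕ} (hl : Pos l) (hc : ∀ r ∈ l, ∀ s ∈ l, ∀ k ∈ cm r s, k ∈ l) {m : ℕ}
    (hm : m ∉ l) {g : L0} (h1 : g ∈ XX l) (h2 : g ∈ UU m) : g ∈ UU (m + 1) := by
  have st : ∀ k, g ∈ XX (l.filter (k ≤ ·)) →
      g ∈ XX (l.filter (k + 1 ≤ ·)) ∨ (k ∈ l ∧ xx k * g ∈ XX (l.filter (k + 1 ≤ ·))) := fun k hg => by
    by_cases c : k ∈ l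
    · refine (fc_step (fc_norm (hl k c) (fun a ha => hl a (List.mem_filter.1 ha).1) fun s hs a ha => ?_)
        (XX_le.2 (fun r hr => xx_mem ?_) hg)).imp_right fun h => ⟨c, h⟩
      · have hs' := (List.mem_filter.1 hs).1
        have := (tab_cm k (hl k c).2 s (hl s hs').2 (by have := hl k c; have := hl s hs'; omega) a ha).2
          (hl k c).1 (hl s hs').1
        simpa [hc k c s hs' a ha] using this.1
      · simp only [List.mem_filter, decide_eq_true_eq, List.mem_cons] at hr ⊢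
        exact hr.2.eq_or_lt.imp Eq.symm fun h => ⟨hr.1, h⟩
    · refine .inl (XX_le.2 (fun r hr => xx_mem ?_) hg)
      simp only [List.mem_filter, decide_eq_true_eq] at hr ⊢
      exact ⟨hr.1, hr.2.lt_of_ne fun e => c (e ▸ hr.1)⟩
  have le : ∀ k, XX (l.filter (k ≤ ·)) ≤ UU k := fun k =>
    XX_le.2 fun r hr => xx_mem_UU (by simpa using (List.mem_filter.1 hr).2)
  have key : ∀ k ≤ m + 1, g ∈ XX (l.filter (k ≤ ·)) := fun k hk => by
    induction k with
    | zero => simpa using h1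
    | succ k ih =>
      refine (st k (ih (by omega))).resolve_right fun ⟨a, b⟩ => not_mem_UU (hl k a).1 (hl k a).2 ?_
      have : k ≠ m := fun e => hm (e ▸ a)
      exact (mul_mem_cancel_right (UU_mono (by omega) h2)).1 (le _ b)
  exact le _ (key _ le_rfl)

/-- The roots of a list of pairs. -/
def fcl (l : List ℕ) : List ℕ := l.flatMap fun r => [r, gm r]

/-- A central series by pairs. -/
def fcG : List ℕ → Bool
  | [] => true
  | r :: l => decide (Pos (r :: gm r :: fcl l) ∧ r < gm r ∧ r ∉ fcl l ∧ (∀ s ∈ fcl l, gm s ∈ fcl l) ∧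
      ∀ a ∈ r :: gm r :: fcl l, ∀ s ∈ gm r :: fcl l, ∀ k ∈ cm a s, k ∈ fcl l) && fcG l

theorem fc_nf {l : List ℕ} (h : fcG l = true) {a : L0} (ha : a ∈ XX (fcl l)) (e : a * gam a = 1) :
    ∃ x, a = x * (gam x)⁻¹ := by
  induction l generalizing a with
  | nil => exact ⟨1, by simpa using XX_le (H := ⊥) |>.2 (by simp [fcl]) ha⟩
  | cons r l ih =>
    simp only [fcG, Bool.and_eq_true, decide_eq_true_eq] at h
    obtain ⟨⟨p, h1, h2, h3, h4⟩, h5⟩ := h
    have p1 := p r (by simp)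
    have p2 := p (gm r) (by simp)
    have p3 : Pos (fcl l) := fun s hs => p s (by simp [hs])
    have n1 := fc_norm p1 p3 fun s hs => h4 r (by simp) s (by simp [hs])
    have n2 := fc_norm p2 p3 fun s hs => h4 (gm r) (by simp) s (by simp [hs])
    have n3 := fc_norm (l := gm r :: fcl l) p1 (fun s hs => p s (by simp [hs])) fun s hs k hk =>
      List.mem_cons_of_mem _ (h4 r (by simp) s hs k hk)
    have g1 : gam (xx r) = xx (gm r) := gam_xx p1.2
    have g2 : gam (xx (gm r)) = xx r := by rw [← g1, gam_gam]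
    have gN : ∀ b ∈ XX (fcl l), gam b ∈ XX (fcl l) := fun b hb =>
      (XX_le (H := (XX (fcl l)).comap gam)).2 (fun s hs => by
        rw [mem_comap, gam_xx (p3 s hs).2]; exact xx_mem (h3 s hs)) hb
    have no : xx r * xx (gm r) ∉ XX (fcl l) := fun c => not_mem_UU p1.1 p1.2
      ((mul_mem_cancel_right (xx_mem_UU h1)).1 (fc_inf p3
        (fun a ha s hs => h4 a (by simp [ha]) s (by simp [hs])) h2 c
        (mul_mem (xx_mem_UU le_rfl) (xx_mem_UU h1.le))))
    have ga : gam a = a⁻¹ := eq_inv_of_mul_eq_one_right e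
    rcases fc_step n3 ha with c | c <;> rcases fc_step n2 c with c | c
    · exact ih h5 c e
    · refine absurd ?_ no
      have k := mul_mem (gN _ c) (PLocal.Amb.conj_mem_of_mem_normalizer n2 c)
      simpa [g2, ga, mul_assoc, fc_xx, xx_inv] using k
    · refine absurd (inv_mem_iff.1 ?_) no
      have k := mul_mem (gN _ c) (PLocal.Amb.conj_mem_of_mem_normalizer n1 c)
      simpa [g1, ga, mul_assoc, fc_xx, xx_inv] using k
    · obtain ⟨x, hx⟩ := ih h5 (PLocal.Amb.conj_mem_of_mem_normalizer n2 c) (by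
        simp [g1, g2, ga, mul_assoc, fc_xx, xx_inv, xx_sq])
      refine ⟨xx r * x, ?_⟩
      rw [map_mul, mul_inv_rev, g1, mul_assoc, ← mul_assoc x, ← hx]
      simp [mul_assoc, fc_xx, xx_inv, xx_sq]

theorem out_nf {a : L0} (h : a * gam a = 1) : ∃ l, a = l * (gam l)⁻¹ := by
  classical
  let σ : L0 ⧸ UU 24 → L0 ⧸ UU 24 := Quotient.map' (fun x => a * gam x) fun x y e => by
    rw [QuotientGroup.leftRel_apply] at e ⊢
    simpa [mul_assoc] using gam_U e
  have hσ : Function.Involutive σ := fun q => Quotient.inductionOn' q fun x =>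
    congrArg Quotient.mk'' (by simp only [map_mul, gam_gam, ← mul_assoc, h, one_mul])
  have := Fintype.ofFinite (L0 ⧸ UU 24)
  have := Fact.mk Nat.prime_two
  obtain ⟨q, hq⟩ := Equiv.Perm.exists_fixed_point_of_prime (p := 2) (n := 1) (σ := hσ.toPerm σ) (by
    have := (UU 24).card_mul_index
    rw [card_UU le_rfl, card_L0] at this
    rw [← Nat.card_eq_fintype_card, ← index_eq_card]
    omega) (Equiv.ext fun q => hσ q)
  obtain ⟨x, rfl⟩ := QuotientGroup.mk_surjective q
  have e : (a * gam x)⁻¹ * x ∈ UU 24 := (QuotientGroup.eq (a := a * gam x)).1 hq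
  obtain ⟨y, hy⟩ := fc_nf (l := [24, 25, 26, 28, 29, 31, 32, 36, 38, 39, 40, 44]) (by decide +kernel)
    (XX_le.2 (fun r hr => xx_mem (by revert r; decide +kernel)) (inv_mem e)) (by
      simp only [mul_inv_rev, inv_inv, map_mul, map_inv, gam_gam, mul_assoc, mul_inv_cancel_left]
      rw [← mul_assoc a, h, one_mul, inv_mul_cancel])
  refine ⟨x * y, ?_⟩
  rw [map_mul, mul_inv_rev, mul_assoc, ← mul_assoc y, ← hy]
  group

/-- Words with increasing leading letters. -/
def fcI : ℕ → List (ℕ × List ℕ) → Bool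
  | _, [] => true
  | k, p :: L => decide (k ≤ p.1 ∧ p.1 < 48 ∧ ∀ b ∈ p.2, p.1 < b) && fcI (p.1 + 1) L

theorem fc_card {H : Subgroup L0} {L : List (ℕ × List ℕ)} {k : ℕ} (hk : 24 ≤ k) (h : fcI k L = true)
    (hH : ∀ p ∈ L, el xx (p.1 :: p.2) ∈ H) : 2 ^ L.length ≤ Nat.card ↥(UU k ⊓ H) := by
  induction L generalizing k with
  | nil => exact Nat.card_pos
  | cons p L ih =>
    simp only [fcI, Bool.and_eq_true, decide_eq_true_eq] at h
    obtain ⟨⟨h1, h2, h3⟩, h4⟩ := h
    have a := ih (by omega) h4 fun q hq => hH q (by simp [hq])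
    have t : el xx p.2 ∈ UU (p.1 + 1) := el_mem fun b hb => xx_mem_UU (h3 b hb)
    have le : UU (p.1 + 1) ⊓ H ≤ UU k ⊓ H := inf_le_inf_right _ (UU_mono (by omega))
    obtain ⟨c, hc⟩ := card_dvd_of_le le
    have c1 : c ≠ 1 := fun e => not_mem_UU (hk.trans h1) h2 ((mul_mem_cancel_right t).1 (by
      rw [← el_cons]
      exact ((eq_of_le_of_card_ge le (by rw [hc, e, mul_one])).ge ⟨by
        rw [el_cons]; exact mul_mem (xx_mem_UU h1) (UU_mono (by omega) t), hH p (by simp)⟩).1))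
    have c0 : c ≠ 0 := fun e => Nat.card_pos.ne' (hc.trans (by rw [e, mul_zero]))
    rw [List.length_cons, pow_succ, hc]
    exact Nat.mul_le_mul a (by omega)

theorem fix13 : ∃ a : L0, orderOf a = 13 ∧ gam a = a := by
  have := Fact.mk (by norm_num : Nat.Prime 13)
  refine ⟨el xx [24, 33, 23, 14, 25, 27, 28, 25, 27, 28, 22, 20, 19, 22, 20, 19], orderOf_eq_prime ?_
    (Q_ne (v := []) (by decide +kernel)), ?_⟩
  · rw [← WG.el_powW]; exact Q_eq (v := []) (by decide +kernel)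
  · rw [gam_el (by decide)]; exact Q_eq (by decide +kernel)

theorem fix2 : ∃ H : Subgroup L0, IsPGroup 2 H ∧ 2 ^ 7 ≤ Nat.card H ∧ ∀ a ∈ H, gam a = a := by
  refine ⟨UU 24 ⊓ gam.eqLocus (.id _), syl_U.pgrp.to_le inf_le_left, fc_card (L := [(24, [33]),
    (25, [27, 28]), (26, [34, 36]), (28, [30]), (29, [41, 44]), (31, [35, 40]), (32, [37])]) le_rfl
    (by decide +kernel) fun p hp => ?_, fun a ha => ha.2⟩
  change gam _ = _
  rw [gam_el (by revert p; decide)]
  exact Q_eq (by revert p; decide +kernel)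

/-- The representatives of the classes of elements of order at most two. -/
def fcR : List (List ℕ) := [[], [47], [44], [47, 44], [39, 45]]

theorem fc_cls {a : L0} (h : a * a = 1) : ∃ g, ∃ u ∈ fcR, a = g * el xx u * g⁻¹ := by
  by_cases e : a = 1
  · exact ⟨1, [], by simp [fcR], by simp [e]⟩
  rcases cls h e with c | c | c | c <;> obtain ⟨g, rfl⟩ := isConj_iff.1 c
  exacts [⟨g, [47], by simp [fcR], by simp⟩, ⟨g, [44], by simp [fcR], by simp⟩,
    ⟨g, [47, 44], by simp [fcR], by simp⟩, ⟨g, [39, 45], by simp [fcR], by simp⟩]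

/-- The roots commuting with all the representatives. -/
def fcL : List ℕ := [24, 28, 29, 30, 31, 32, 33, 35, 36, 37, 38, 39, 40, 41, 42, 43, 44, 45, 46, 47]

theorem fc_comm {u : List ℕ} (hu : u ∈ fcR) {r : ℕ} (hr : r ∈ fcL) :
    xx r * el xx u = el xx u * xx r := by
  simpa using Q_eq ((by decide +kernel : ∀ u ∈ fcR, ∀ r ∈ fcL, Q (r :: u) (u ++ [r]) = true) u hu r hr)

theorem fc_cj {G : Type*} [Group G] {a b : G} (g : G) (h : a * b = b * a) :
    g * a * g⁻¹ * (g * b * g⁻¹) = g * b * g⁻¹ * (g * a * g⁻¹) := by rw [conj_mul, conj_mul, h]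

theorem cent20 {a : L0} (a2 : a * a = 1) : ∃ H : Subgroup L0, IsPGroup 2 H ∧ 2 ^ 20 ≤ Nat.card H ∧
    ∀ h ∈ H, h * a = a * h := by
  obtain ⟨g, u, hu, rfl⟩ := fc_cls a2
  refine ⟨cj(g, UU 24 ⊓ centralizer {el xx u}), (syl_U.pgrp.to_le inf_le_left).map _, ?_, ?_⟩
  · rw [card_cj]
    refine fc_card (L := fcL.map fun r => (r, [])) le_rfl (by decide +kernel) ?_
    simp only [List.forall_mem_map, el_cons, el_nil, mul_one]
    exact fun r hr => mem_centralizer_singleton_iff.2 (fc_comm hu hr)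
  · rintro _ ⟨h, hh, rfl⟩
    exact fc_cj g (mem_centralizer_singleton_iff.1 hh.2)

end Cfsg.Agent.F42S
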